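import Mathlib
import Cfsg.Agent.Lib.Nine.Coord

/-!
# Local analysis for a self-centralizing elementary abelian Sylow `3`-subgroup of order `9`
-/

set_option autoImplicit false
set_option linter.unusedSectionVars false
set_option linter.style.haveILetI false

namespace Cfsg.Agent.Lib.E9Self

open Cfsg.Agent.Lib.Nine.Coord

universe u

theorem zmod3_cases (i : ZMod 3) : i = 0 ∨ i = 1 ∨ i = 2 := by
  revert i
  decide

theorem val0 : (0 : ZMod 3).val = 0 := rfl
theorem val1 : (1 : ZMod 3).val = 1 := rfl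
theorem val2 : (2 : ZMod 3).val = 2 := rfl

/-- The orbit of `a` in coordinates. -/
def Oa (p : ZMod 3 × ZMod 3) : Prop := p = (1, 0) ∨ p = (2, 0) ∨ p = (1, 1) ∨ p = (2, 2)

/-- The orbit of `b` in coordinates. -/
def Ob (p : ZMod 3 × ZMod 3) : Prop := p = (0, 1) ∨ p = (0, 2) ∨ p = (1, 2) ∨ p = (2, 1)

instance : DecidablePred Oa := fun p => by unfold Oa; infer_instance
instance : DecidablePred Ob := fun p => by unfold Ob; infer_instance

theorem trichotomy_coord : ∀ p : ZMod 3 × ZMod 3, p = 0 ∨ Oa p ∨ Ob p := by decide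

theorem pair_coord : ∀ p q : ZMod 3 × ZMod 3, Oa p → Oa q → p + q = (0, 1) →
    (p = (2, 0) ∧ q = (1, 1)) ∨ (p = (1, 1) ∧ q = (2, 0)) := by decide

theorem sum_coord {R : Type*} [AddCommMonoid R] (F : ZMod 3 × ZMod 3 → R) :
    ∑ p, F p = F (0, 0) + F (0, 1) + F (0, 2) + (F (1, 0) + F (1, 1) + F (1, 2)) +
      (F (2, 0) + F (2, 1) + F (2, 2)) := by
  have h3 : ∀ H : ZMod 3 → R, ∑ i, H i = H 0 + H 1 + H 2 := fun H => Fin.sum_univ_three H
  rw [Fintype.sum_prod_type, h3]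
  simp only [h3]

variable {G : Type u} [Group G] [Finite G]

/-- The hypotheses on the Sylow subgroup. -/
structure Setup (S : Subgroup G) : Prop where
  syl : ∃ P : Sylow 3 G, S = P
  comm : ∀ x ∈ S, ∀ y ∈ S, x * y = y * x
  exp : ∀ x ∈ S, x ^ 3 = 1
  card : Nat.card S = 9
  cent : ∀ s ∈ S, s ≠ 1 → Subgroup.centralizer ({s} : Set G) = S

variable {S : Subgroup G} (hS : Setup S)
include hS

theorem Setup.exists_conj_mem {u : G} (hu : u ^ 3 = 1) : ∃ g : G, g * u * g⁻¹ ∈ S := by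
  obtain ⟨P, hP⟩ := hS.syl
  have hQ : IsPGroup 3 (Subgroup.zpowers u) := by
    rintro ⟨x, hx⟩
    obtain ⟨k, rfl⟩ := Subgroup.mem_zpowers_iff.mp hx
    refine ⟨1, Subtype.ext ?_⟩
    simp only [pow_one, Subgroup.coe_pow, Subgroup.coe_one]
    rw [← zpow_natCast, ← zpow_mul, mul_comm, zpow_mul]
    have : u ^ ((3 : ℕ) : ℤ) = 1 := by rw [zpow_natCast, hu]
    rw [this, one_zpow]
  obtain ⟨R, hR⟩ := hQ.exists_le_sylow
  obtain ⟨c, hc⟩ := MulAction.exists_smul_eq G R P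
  refine ⟨c, ?_⟩
  rw [hP, ← hc, Sylow.smul_def, Sylow.pointwise_smul_def]
  exact ⟨u, hR (Subgroup.mem_zpowers u), rfl⟩

omit [Finite G] hS in
theorem conj_ne_one {g s : G} (hs : s ≠ 1) : g * s * g⁻¹ ≠ 1 := by
  intro h
  apply hs
  have : s = g⁻¹ * (g * s * g⁻¹) * g := by group
  rw [this, h]
  group

theorem Setup.mem_of_comm {s g : G} (hs : s ∈ S) (hs1 : s ≠ 1) (h : g * s = s * g) : g ∈ S := by
  rw [← hS.cent s hs hs1, Subgroup.mem_centralizer_singleton_iff]
  exact h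

theorem Setup.mem_of_fix {s g : G} (hs : s ∈ S) (hs1 : s ≠ 1) (h : g * s * g⁻¹ = s) : g ∈ S := by
  refine hS.mem_of_comm hs hs1 ?_
  calc g * s = g * s * g⁻¹ * g := by group
    _ = s * g := by rw [h]

theorem Setup.conj_mem {s g t : G} (hs : s ∈ S) (hs1 : s ≠ 1) (hg : g * s * g⁻¹ ∈ S) (ht : t ∈ S) :
    g * t * g⁻¹ ∈ S := by
  refine hS.mem_of_comm hg (conj_ne_one hs1) ?_
  have h1 := hS.comm t ht s hs
  calc g * t * g⁻¹ * (g * s * g⁻¹) = g * (t * s) * g⁻¹ := by group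
    _ = g * (s * t) * g⁻¹ := by rw [h1]
    _ = _ := by group

theorem Setup.exists_fixed {q k : ℕ} [Fact q.Prime] {x : G} (hx : ∀ t ∈ S, x * t * x⁻¹ ∈ S)
    (hxq : x ^ q ^ k = 1) (hq : ¬ 9 ≡ 1 [MOD q]) : ∃ s ∈ S, s ≠ 1 ∧ x * s * x⁻¹ = s := by
  classical
  by_contra hno
  push Not at hno
  letI : Fintype S := Fintype.ofFinite _
  let f : Function.End S := fun t => ⟨x * t * x⁻¹, hx t t.2⟩
  have hf : ∀ n : ℕ, ∀ t : S, (((f ^ n : Function.End S) t : S) : G) = x ^ n * t * (x ^ n)⁻¹ := by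
    intro n
    induction n with
    | zero =>
      intro t
      simp only [pow_zero, one_mul, inv_one, mul_one]
      rfl
    | succ n ih =>
      intro t
      rw [pow_succ', Function.End.mul_def]
      change x * (((f ^ n : Function.End S) t : S) : G) * x⁻¹ = _
      rw [ih t, pow_succ']
      group
  have hfq : f ^ q ^ k = 1 := by
    funext t
    apply Subtype.ext
    rw [hf, hxq]
    simp
    rfl
  have h1 := Equiv.Perm.card_fixedPoints_modEq hfq
  have hfix : Nat.card (Function.fixedPoints f) = 1 := by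
    rw [Nat.card_eq_one_iff_unique]
    constructor
    · constructor
      rintro ⟨t, ht⟩ ⟨t', ht'⟩
      have key : ∀ t : S, Function.IsFixedPt f t → t = 1 := by
        intro t ht
        apply Subtype.ext
        by_contra hne
        have h2 : x * (t : G) * x⁻¹ = t := congrArg Subtype.val ht
        exact hno t t.2 hne h2
      apply Subtype.ext
      exact (key t ht).trans (key t' ht').symm
    · refine ⟨⟨1, ?_⟩⟩
      apply Subtype.ext
      change x * 1 * x⁻¹ = 1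
      group
  have e : Nat.card S = 9 := hS.card
  rw [← Nat.card_eq_fintype_card, ← Nat.card_eq_fintype_card, hfix, e] at h1
  exact hq h1

theorem Setup.mem_of_pow {x : G} {k : ℕ} (hx : ∀ t ∈ S, x * t * x⁻¹ ∈ S) (hxq : x ^ 3 ^ k = 1) : x ∈ S := by
  haveI : Fact (Nat.Prime 3) := ⟨Nat.prime_three⟩
  obtain ⟨s, hs, hs1, h⟩ := hS.exists_fixed (q := 3) hx hxq (by decide)
  exact hS.mem_of_fix hs hs1 h

/-- The mixed lemma. -/
theorem Setup.mixed {x y : G} (hx : x ^ 3 = 1) (hy : y ^ 3 = 1) (hb : x * y ∈ S) (hb1 : x * y ≠ 1) :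
    (x ∈ S ∧ y ∈ S) ∨ IsConj x⁻¹ (x * y) := by
  obtain ⟨w, hw⟩ : ∃ w, y = x * w := ⟨x⁻¹ * y, by group⟩
  subst hw
  have hx3 : x * x * x = 1 := by rw [← hx, pow_succ, pow_two]
  have hxx : x * x = x⁻¹ := by
    rw [eq_inv_iff_mul_eq_one]
    exact hx3
  have hxi : x⁻¹ * x⁻¹ = x := by
    rw [← hxx]
    calc x * x * (x * x) = (x * x * x) * x := by group
      _ = x := by rw [hx3, one_mul]
  have hb' : x * (x * w) = x⁻¹ * w := by rw [← mul_assoc, hxx]
  rw [hb'] at hb hb1 ⊢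
  have hb3 : (x⁻¹ * w) ^ 3 = 1 := hS.exp _ hb
  set u₁ := x⁻¹ * w * x with hu₁
  set u₂ := x * w * x⁻¹ with hu₂
  have E1 : u₂ * u₁ * w = 1 := by
    have h1 : (x * w) ^ 3 = 1 := hy
    calc u₂ * u₁ * w = x * w * (x⁻¹ * x⁻¹) * w * x * w := by rw [hu₁, hu₂]; group
      _ = x * w * x * w * x * w := by rw [hxi]
      _ = (x * w) ^ 3 := by simp only [pow_succ, pow_zero, one_mul, mul_assoc]
      _ = 1 := h1
  have E2 : u₁ * u₂ * w = 1 := by
    calc u₁ * u₂ * w = x⁻¹ * w * (x * x) * w * x⁻¹ * w := by rw [hu₁, hu₂]; group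
      _ = x⁻¹ * w * x⁻¹ * w * x⁻¹ * w := by rw [hxx]
      _ = (x⁻¹ * w) ^ 3 := by simp only [pow_succ, pow_zero, one_mul, mul_assoc]
      _ = 1 := hb3
  have hc12 : u₁ * u₂ = u₂ * u₁ := by
    have : u₁ * u₂ * w = u₂ * u₁ * w := by rw [E1, E2]
    exact mul_right_cancel this
  have hwe : w = (u₁ * u₂)⁻¹ := by
    rw [eq_inv_iff_mul_eq_one]
    have : w * (u₁ * u₂) * w = w * 1 := by
      rw [← E2]
      group
    have h2 : w * (u₁ * u₂) * w = 1 * w := by rw [this]; group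
    exact mul_right_cancel h2
  have hcw1 : w * u₁ = u₁ * w := by
    rw [hwe]
    have h3 : (u₁ * u₂) * u₁ = u₁ * (u₁ * u₂) := by
      calc (u₁ * u₂) * u₁ = u₁ * (u₂ * u₁) := by group
        _ = u₁ * (u₁ * u₂) := by rw [hc12]
    have : Commute (u₁ * u₂) u₁ := h3
    exact this.inv_left.eq
  have hu₂e : u₂ = (w * u₁)⁻¹ := by
    rw [eq_inv_iff_mul_eq_one]
    calc u₂ * (w * u₁) = u₂ * (u₁ * w) := by rw [hcw1]
      _ = u₂ * u₁ * w := by group
      _ = 1 := E1
  by_cases h3 : 3 ∣ orderOf w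
  · left
    obtain ⟨k, hk⟩ := h3
    have hord : orderOf w ≠ 0 := by
      have := orderOf_pos_iff.mpr (isOfFinOrder_of_finite w)
      omega
    have hk0 : k ≠ 0 := by
      rintro rfl
      rw [mul_zero] at hk
      exact hord hk
    have hw3 : (w ^ k) ^ 3 = 1 := by
      rw [← pow_mul, mul_comm, ← hk, pow_orderOf_eq_one]
    have hwk : w ^ k ≠ 1 := pow_ne_one_of_lt_orderOf hk0 (by omega)
    have hw1 : w ≠ 1 := by
      rintro rfl
      simp at hwk
    obtain ⟨g, hg⟩ := hS.exists_conj_mem hw3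
    -- `w` conjugates into `S`
    have hw₁ : g * w * g⁻¹ ∈ S := by
      refine hS.mem_of_comm hg (conj_ne_one hwk) ?_
      have hcm : w * w ^ k = w ^ k * w := (Commute.self_pow w k).eq
      calc g * w * g⁻¹ * (g * w ^ k * g⁻¹) = g * (w * w ^ k) * g⁻¹ := by group
        _ = g * (w ^ k * w) * g⁻¹ := by rw [hcm]
        _ = _ := by group
    have hz : g * u₁ * g⁻¹ ∈ S := by
      refine hS.mem_of_comm hw₁ (conj_ne_one hw1) ?_
      calc g * u₁ * g⁻¹ * (g * w * g⁻¹) = g * (u₁ * w) * g⁻¹ := by group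
        _ = g * (w * u₁) * g⁻¹ := by rw [hcw1]
        _ = _ := by group
    have hz' : (g * x * g⁻¹)⁻¹ * (g * w * g⁻¹) * (g * x * g⁻¹)⁻¹⁻¹ ∈ S := by
      have : (g * x * g⁻¹)⁻¹ * (g * w * g⁻¹) * (g * x * g⁻¹)⁻¹⁻¹ = g * u₁ * g⁻¹ := by
        rw [hu₁]; group
      rw [this]
      exact hz
    have hx₁ : (g * x * g⁻¹)⁻¹ ∈ S := by
      refine hS.mem_of_pow (k := 1) (fun t ht => hS.conj_mem hw₁ (conj_ne_one hw1) hz' ht) ?_
      rw [pow_one, inv_pow, conj_pow, hx]
      group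
    have hx₂ : g * x * g⁻¹ ∈ S := by simpa using S.inv_mem hx₁
    have hy₂ : g * (x * w) * g⁻¹ ∈ S := by
      have : g * (x * w) * g⁻¹ = (g * x * g⁻¹) * (g * w * g⁻¹) := by group
      rw [this]
      exact S.mul_mem hx₂ hw₁
    have hs : g * (x⁻¹ * w) * g⁻¹ ∈ S := by
      have : g * (x⁻¹ * w) * g⁻¹ = (g * x * g⁻¹)⁻¹ * (g * w * g⁻¹) := by group
      rw [this]
      exact S.mul_mem hx₁ hw₁
    have hback : ∀ t ∈ S, g⁻¹ * t * g⁻¹⁻¹ ∈ S := by
      intro t ht
      refine hS.conj_mem hs (conj_ne_one hb1) ?_ ht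
      have : g⁻¹ * (g * (x⁻¹ * w) * g⁻¹) * g⁻¹⁻¹ = x⁻¹ * w := by group
      rw [this]
      exact hb
    constructor
    · have := hback _ hx₂
      have e : g⁻¹ * (g * x * g⁻¹) * g⁻¹⁻¹ = x := by group
      rwa [e] at this
    · have := hback _ hy₂
      have e : g⁻¹ * (g * (x * w) * g⁻¹) * g⁻¹⁻¹ = x * w := by group
      rwa [e] at this
  · right
    have hcop : Nat.Coprime 3 (orderOf w) := (Nat.Prime.coprime_iff_not_dvd Nat.prime_three).mpr h3
    obtain ⟨m, hm⟩ := exists_pow_eq_self_of_coprime hcop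
    set v := w ^ m with hv
    set v' := u₁ ^ m with hv'
    have hv3 : v ^ 3 = w := by
      rw [hv, ← pow_mul, mul_comm, pow_mul, hm]
    have hcv : v * v' = v' * v := (Commute.pow_pow (show Commute w u₁ from hcw1) m m).eq
    have h1 : x⁻¹ * v * x = v' := by
      have := conj_pow (a := x⁻¹) (b := w) (i := m)
      rw [inv_inv] at this
      rw [hv, hv', hu₁, this]
    have h2 : x⁻¹ * v' * x = (v * v')⁻¹ := by
      have := conj_pow (a := x⁻¹) (b := u₁) (i := m)
      rw [inv_inv] at this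
      rw [hv', ← this]
      have e : x⁻¹ * u₁ * x = u₂ := by
        calc x⁻¹ * u₁ * x = (x⁻¹ * x⁻¹) * w * (x * x) := by rw [hu₁]; group
          _ = x * w * x⁻¹ := by rw [hxi, hxx]
      rw [e, hu₂e, inv_pow, (show Commute w u₁ from hcw1).mul_pow]
    have h3' : x⁻¹ * v = v' * x⁻¹ := by
      rw [← h1]; group
    have h4 : x⁻¹ * v'⁻¹ = (v * v') * x⁻¹ := by
      have : (x⁻¹ * v' * x)⁻¹ = x⁻¹ * v'⁻¹ * x := by group
      rw [h2, inv_inv] at this
      rw [this]
      group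
    rw [isConj_iff]
    refine ⟨(v * v'⁻¹)⁻¹, ?_⟩
    rw [inv_inv]
    have hcvi : v'⁻¹ * v = v * v'⁻¹ := (Commute.inv_left (show Commute v' v from hcv.symm)).eq
    calc (v * v'⁻¹)⁻¹ * x⁻¹ * (v * v'⁻¹) = v' * v⁻¹ * (x⁻¹ * v) * v'⁻¹ := by group
      _ = v' * v⁻¹ * v' * (x⁻¹ * v'⁻¹) := by rw [h3']; group
      _ = v' * v⁻¹ * v' * ((v * v') * x⁻¹) := by rw [h4]
      _ = v' * (v⁻¹ * (v' * v)) * v' * x⁻¹ := by group
      _ = v' * v' * v' * x⁻¹ := by
          rw [← hcv]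
          group
      _ = x⁻¹ * v ^ 3 := by
          have h3'' : ∀ z, x⁻¹ * (v * z) = v' * (x⁻¹ * z) := by
            intro z
            rw [← mul_assoc, h3', mul_assoc]
          have e : v ^ 3 = v * (v * v) := by simp only [pow_succ, pow_zero, one_mul, mul_assoc]
          rw [e, h3'', h3'', h3']
          simp only [mul_assoc]
      _ = x⁻¹ * w := by rw [hv3]

/-- Burnside's transfer gives an element of the normalizer outside `S`. -/
theorem Setup.exists_normalizing [IsSimpleGroup G] : ∃ n : G, n ∉ S ∧ ∀ t ∈ S, n * t * n⁻¹ ∈ S := by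
  classical
  obtain ⟨P, hP⟩ := hS.syl
  by_contra hno
  push Not at hno
  have hS_abs : ∀ n : G, (∀ t ∈ S, n * t * n⁻¹ ∈ S) → n ∈ S := by
    intro n hn
    by_contra hnS
    obtain ⟨t, ht, ht'⟩ := hno n hnS
    exact ht' (hn t ht)
  haveI : Fact (Nat.Prime 3) := ⟨Nat.prime_three⟩
  have hN : Subgroup.normalizer ((P : Subgroup G) : Set G) ≤ Subgroup.centralizer ((P : Subgroup G) : Set G) := by
    intro n hn
    rw [Subgroup.mem_centralizer_iff]
    intro t ht
    have hnS : n ∈ S := by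
      apply hS_abs
      intro t ht
      rw [hP] at ht ⊢
      rw [Subgroup.mem_normalizer_iff] at hn
      exact (hn t).mp ht
    have htS : t ∈ S := by rw [hP]; exact ht
    exact hS.comm t htS n hnS
  have hc := MonoidHom.ker_transferSylow_isComplement' P hN
  have hcard1 : S ≠ ⊥ := by
    intro h
    have := hS.card
    rw [h] at this
    simp at this
  rcases IsSimpleGroup.eq_bot_or_eq_top_of_normal _ (MonoidHom.normal_ker (MonoidHom.transferSylow P hN)) with h | h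
  · have h1 := hc.sup_eq_top
    rw [h, bot_sup_eq] at h1
    have hSt : S = ⊤ := by rw [hP, h1]
    rcases Subgroup.bot_or_exists_ne_one S with h2 | ⟨s, hs, hs1⟩
    · exact hcard1 h2
    · have hnorm : (Subgroup.zpowers s).Normal := by
        constructor
        intro n hn g
        have hnS : n ∈ S := (Subgroup.zpowers_le.mpr hs) hn
        have hgS : g ∈ S := by rw [hSt]; trivial
        have := hS.comm g hgS n hnS
        rw [this]
        simpa using hn
      rcases IsSimpleGroup.eq_bot_or_eq_top_of_normal _ hnorm with h3 | h3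
      · exact hs1 (Subgroup.zpowers_eq_bot.mp h3)
      · have h4 : Nat.card (Subgroup.zpowers s) = 3 := by
          rw [Nat.card_zpowers]
          exact orderOf_eq_prime (hS.exp s hs) hs1
        have h5 := hS.card
        rw [hSt] at h5
        rw [h3] at h4
        rw [h4] at h5
        omega
  · have h1 := hc.disjoint
    rw [h, top_disjoint] at h1
    exact hcard1 (by rw [hP, h1])

theorem Setup.exists_inverter [IsSimpleGroup G] : ∃ z : G, ∀ s ∈ S, z * s * z⁻¹ = s⁻¹ := by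
  obtain ⟨n, hn, hnS⟩ := hS.exists_normalizing
  have hm : orderOf n ≠ 0 := (orderOf_pos_iff.mpr (isOfFinOrder_of_finite n)).ne'
  have hex : ∃ q : ℕ, q.Prime ∧ q ∣ orderOf n ∧ q ≠ 3 := by
    by_contra hno
    push Not at hno
    have := Nat.eq_prime_pow_of_unique_prime_dvd hm (fun {d} hd hdv => hno d hd hdv)
    apply hn
    refine hS.mem_of_pow hnS (k := (orderOf n).primeFactorsList.length) ?_
    rw [← this]
    exact pow_orderOf_eq_one n
  obtain ⟨q, hq, hqd, hq3⟩ := hex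
  haveI := Fact.mk hq
  have heS : ∀ k : ℕ, ∀ t ∈ S, n ^ k * t * (n ^ k)⁻¹ ∈ S := by
    intro k
    induction k with
    | zero => intro t ht; simpa using ht
    | succ k ih =>
      intro t ht
      have := hnS _ (ih t ht)
      have e : n ^ (k + 1) * t * (n ^ (k + 1))⁻¹ = n * (n ^ k * t * (n ^ k)⁻¹) * n⁻¹ := by
        rw [pow_succ']
        group
      rw [e]
      exact this
  set e := n ^ (orderOf n / q) with he
  have heo : orderOf e = q := orderOf_pow_orderOf_div hm hqd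
  have he1 : e ^ q ^ 1 = 1 := by
    rw [pow_one, ← heo]
    exact pow_orderOf_eq_one e
  have heN : e ∉ S := by
    intro h
    have h3 := orderOf_dvd_of_pow_eq_one (hS.exp e h)
    rw [heo] at h3
    exact hq3 ((Nat.prime_dvd_prime_iff_eq hq Nat.prime_three).mp h3)
  have hq2 : q = 2 := by
    by_contra h2
    obtain ⟨s, hs, hs1, hfix⟩ := hS.exists_fixed (q := q) (k := 1) (heS _) he1 (fun hmod => by
      have h8 : q ∣ 9 - 1 := (Nat.modEq_iff_dvd' (by norm_num)).mp hmod.symm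
      have h9 : q ∣ 2 ^ 3 := by simpa using h8
      exact h2 ((Nat.prime_dvd_prime_iff_eq hq Nat.prime_two).mp (hq.dvd_of_dvd_pow h9)))
    exact heN (hS.mem_of_fix hs hs1 hfix)
  subst hq2
  have he2 : e * e = 1 := by
    have : e ^ 2 = 1 := by simpa using he1
    rwa [pow_two] at this
  have hei : e⁻¹ = e := (eq_inv_of_mul_eq_one_left he2).symm
  refine ⟨e, fun s hs => ?_⟩
  have hes : e * s * e⁻¹ ∈ S := heS _ s hs
  have hw : e * (s * (e * s * e⁻¹)) * e⁻¹ = s * (e * s * e⁻¹) := by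
    have h1 := hS.comm s hs _ hes
    have h2 : e * e * s * e⁻¹ * e⁻¹ = s := by
      rw [he2, one_mul, hei, mul_assoc, he2, mul_one]
    calc e * (s * (e * s * e⁻¹)) * e⁻¹ = (e * s * e⁻¹) * (e * e * s * e⁻¹ * e⁻¹) := by group
      _ = (e * s * e⁻¹) * s := by rw [h2]
      _ = _ := h1.symm
  have hw1 : s * (e * s * e⁻¹) = 1 := by
    by_contra hne
    exact heN (hS.mem_of_fix (S.mul_mem hs hes) hne hw)
  exact eq_inv_of_mul_eq_one_right hw1

/-- The element fusing `u` to `u v` does not fix `v` up to inversion. -/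
theorem Setup.tri {u v n : G} (hu : u ∈ S) (hu1 : u ≠ 1) (hv : v ∈ S) (hv1 : v ≠ 1) (huv : u ≠ v)
    (hn : n * u * n⁻¹ = u * v) : n * v * n⁻¹ ∈ S ∧ n * v * n⁻¹ ≠ v ∧ n * v * n⁻¹ ≠ v⁻¹ := by
  have hmem : n * u * n⁻¹ ∈ S := by
    rw [hn]
    exact S.mul_mem hu hv
  refine ⟨hS.conj_mem hu hu1 hmem hv, ?_, ?_⟩
  · intro h
    have hnS := hS.mem_of_fix hv hv1 h
    have h1 := hS.comm n hnS u hu
    have h2 : n * u * n⁻¹ = u := by rw [h1]; group
    rw [h2] at hn
    exact hv1 (by simpa using hn.symm)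
  · intro h
    have hw1 : u⁻¹ * v ≠ 1 := by
      intro h1
      apply huv
      have : u * (u⁻¹ * v) = u * 1 := by rw [h1]
      simpa using this.symm
    have hv3 : v * v * v = 1 := by
      have := hS.exp v hv
      rwa [pow_succ, pow_two] at this
    have hvv : v⁻¹ * v⁻¹ = v := by
      calc v⁻¹ * v⁻¹ = (v * v * v) * (v⁻¹ * v⁻¹) := by rw [hv3, one_mul]
        _ = v := by group
    have hfix : n * (u⁻¹ * v) * n⁻¹ = u⁻¹ * v := by
      have e : n * (u⁻¹ * v) * n⁻¹ = (n * u * n⁻¹)⁻¹ * (n * v * n⁻¹) := by group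
      rw [e, hn, h]
      have hc := hS.comm u hu v hv
      calc (u * v)⁻¹ * v⁻¹ = u⁻¹ * (v⁻¹ * v⁻¹) * ((u * v) * (v * u)⁻¹) := by
            rw [hc, show (v * u) * (v * u)⁻¹ = 1 by group]
            group
        _ = u⁻¹ * v := by
            rw [hvv, hc, show (v * u) * (v * u)⁻¹ = 1 by group]
            group
    have hnS := hS.mem_of_fix (S.mul_mem (S.inv_mem hu) hv) hw1 hfix
    have h1 := hS.comm n hnS u hu
    have h2 : n * u * n⁻¹ = u := by rw [h1]; group
    rw [h2] at hn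
    exact hv1 (by simpa using hn.symm)

section Coord

variable {a b : G} (ha : a ∈ S) (hb : b ∈ S) (ha1 : a ≠ 1) (hb1 : b ≠ 1) (hba : b ≠ a) (hba' : b ≠ a⁻¹)
include ha hb ha1 hb1 hba hba'

theorem Setup.sq_a : a ^ 2 = a⁻¹ := by
  rw [eq_inv_iff_mul_eq_one, ← pow_succ, hS.exp a ha]

theorem Setup.sq_b : b ^ 2 = b⁻¹ := by
  rw [eq_inv_iff_mul_eq_one, ← pow_succ, hS.exp b hb]

theorem Setup.τ_injective : Function.Injective (τ a b) := by
  have hc := hS.comm a ha b hb
  have hsa := hS.sq_a ha hb ha1 hb1 hba hba'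
  have hsb := hS.sq_b ha hb ha1 hb1 hba hba'
  have key : ∀ p, τ a b p = 1 → p = 0 := by
    rintro ⟨i, j⟩ h
    have h1 : a ^ i.val * b ^ j.val = 1 := h
    rcases zmod3_cases i with rfl | rfl | rfl <;> rcases zmod3_cases j with rfl | rfl | rfl <;>
      simp only [val0, val1, val2, pow_zero, pow_one, one_mul, mul_one, hsa, hsb] at h1
    · rfl
    · exact absurd h1 hb1
    · exact absurd (inv_eq_one.mp h1) hb1
    · exact absurd h1 ha1
    · exact absurd (eq_inv_of_mul_eq_one_right h1) hba'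
    · have h2 : a = b := by simpa using eq_inv_of_mul_eq_one_left h1
      exact absurd h2.symm hba
    · exact absurd (inv_eq_one.mp h1) ha1
    · exact absurd (by simpa using eq_inv_of_mul_eq_one_right h1 : b = a) hba
    · have h2 : b⁻¹ = a := by simpa using eq_inv_of_mul_eq_one_right h1
      exact absurd (by rw [← h2, inv_inv]) hba'
  intro p q hpq
  have h1 : τ a b (p - q) = 1 := by
    have h2 : τ a b (p - q) * τ a b q = τ a b q := by
      rw [← τ_add (hS.exp a ha) (hS.exp b hb) hc, sub_add_cancel, hpq]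
    exact mul_eq_right.mp h2
  exact sub_eq_zero.mp (key _ h1)

theorem Setup.τ_exists {y : G} (hy : y ∈ S) : ∃ p, τ a b p = y :=
  τ_surj (hS.exp a ha) (hS.exp b hb) (hS.comm a ha b hb) hS.card ha hb (hS.τ_injective ha hb ha1 hb1 hba hba') hy

theorem Setup.enum {t : G} (ht : t ∈ S) :
    t = 1 ∨ t = a ∨ t = a⁻¹ ∨ t = b ∨ t = b⁻¹ ∨ t = a * b ∨ t = (a * b)⁻¹ ∨ t = a * b⁻¹ ∨ t = (a * b⁻¹)⁻¹ := by
  obtain ⟨⟨i, j⟩, rfl⟩ := hS.τ_exists ha hb ha1 hb1 hba hba' ht
  have hc := hS.comm a ha b hb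
  have hsa := hS.sq_a ha hb ha1 hb1 hba hba'
  have hsb := hS.sq_b ha hb ha1 hb1 hba hba'
  have e1 : a⁻¹ * b = (a * b⁻¹)⁻¹ := by
    rw [mul_inv_rev, inv_inv]
    exact (Commute.inv_left (show Commute a b from hc)).eq.trans rfl
  have e2 : a⁻¹ * b⁻¹ = (a * b)⁻¹ := by
    rw [mul_inv_rev]
    exact (Commute.inv_inv (show Commute a b from hc)).eq
  change a ^ i.val * b ^ j.val = 1 ∨ a ^ i.val * b ^ j.val = a ∨ a ^ i.val * b ^ j.val = a⁻¹ ∨
    a ^ i.val * b ^ j.val = b ∨ a ^ i.val * b ^ j.val = b⁻¹ ∨ a ^ i.val * b ^ j.val = a * b ∨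
    a ^ i.val * b ^ j.val = (a * b)⁻¹ ∨ a ^ i.val * b ^ j.val = a * b⁻¹ ∨
    a ^ i.val * b ^ j.val = (a * b⁻¹)⁻¹
  rcases zmod3_cases i with rfl | rfl | rfl <;> rcases zmod3_cases j with rfl | rfl | rfl <;>
    simp only [val0, val1, val2, pow_zero, pow_one, one_mul, mul_one, hsa, hsb, e1, e2, true_or, or_true]

variable (hreal : ∀ s ∈ S, IsConj s s⁻¹) (hnc : ¬ IsConj a b)
include hreal hnc

theorem Setup.nonisol_b {t : G} (ht : t ∈ S) (hbt : IsConj b t) (h1 : t ≠ b) (h2 : t ≠ b⁻¹) :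
    IsConj b (a * b) ∨ IsConj b (a * b⁻¹) := by
  rcases hS.enum ha hb ha1 hb1 hba hba' ht with rfl | rfl | rfl | rfl | rfl | rfl | rfl | rfl | rfl
  · exact absurd (isConj_one_left.mp hbt) hb1
  · exact absurd hbt.symm hnc
  · exact absurd ((hreal a ha).trans hbt.symm) hnc
  · exact absurd rfl h1
  · exact absurd rfl h2
  · exact Or.inl hbt
  · exact Or.inl (hbt.trans (hreal _ (S.mul_mem ha hb)).symm)
  · exact Or.inr hbt
  · exact Or.inr (hbt.trans (hreal _ (S.mul_mem ha (S.inv_mem hb))).symm)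

theorem Setup.nonisol_a {t : G} (ht : t ∈ S) (hat : IsConj a t) (h1 : t ≠ a) (h2 : t ≠ a⁻¹) :
    IsConj a (a * b) ∨ IsConj a (a * b⁻¹) := by
  rcases hS.enum ha hb ha1 hb1 hba hba' ht with rfl | rfl | rfl | rfl | rfl | rfl | rfl | rfl | rfl
  · exact absurd (isConj_one_left.mp hat) ha1
  · exact absurd rfl h1
  · exact absurd rfl h2
  · exact absurd hat hnc
  · exact absurd (hat.trans (hreal b hb).symm) hnc
  · exact Or.inl hat
  · exact Or.inl (hat.trans (hreal _ (S.mul_mem ha hb)).symm)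
  · exact Or.inr hat
  · exact Or.inr (hat.trans (hreal _ (S.mul_mem ha (S.inv_mem hb))).symm)

theorem Setup.partition :
    (IsConj a (a * b) ∧ IsConj b (a * b⁻¹)) ∨ (IsConj a (a * b⁻¹) ∧ IsConj b (a * b)) ∨
    (¬ IsConj a (a * b) ∧ ¬ IsConj a (a * b⁻¹) ∧ ¬ IsConj b (a * b) ∧ ¬ IsConj b (a * b⁻¹) ∧
      ¬ IsConj (a * b) (a * b⁻¹)) := by
  have hc := hS.comm a ha b hb
  have hbi := S.inv_mem hb
  have hbi1 : b⁻¹ ≠ 1 := inv_ne_one.mpr hb1
  have hab : a ≠ b⁻¹ := by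
    intro h
    exact hba' (by rw [h, inv_inv])
  have nb := fun {t : G} => hS.nonisol_b (t := t) ha hb ha1 hb1 hba hba' hreal hnc
  have na := fun {t : G} => hS.nonisol_a (t := t) ha hb ha1 hb1 hba hba' hreal hnc
  have s1 : IsConj a (a * b) → IsConj b (a * b⁻¹) := by
    intro h
    obtain ⟨n, hn⟩ := isConj_iff.mp h
    obtain ⟨h1, h2, h3⟩ := hS.tri ha ha1 hb hb1 hba.symm hn
    rcases nb h1 (isConj_iff.mpr ⟨n, rfl⟩) h2 h3 with h4 | h4
    · exact absurd (h.trans h4.symm) hnc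
    · exact h4
  have s2 : IsConj a (a * b⁻¹) → IsConj b (a * b) := by
    intro h
    obtain ⟨n, hn⟩ := isConj_iff.mp h
    obtain ⟨h1, h2, h3⟩ := hS.tri ha ha1 hbi hbi1 hab hn
    rw [inv_inv] at h3
    have hbt : IsConj b (n * b⁻¹ * n⁻¹) := (hreal b hb).trans (isConj_iff.mpr ⟨n, rfl⟩)
    rcases nb h1 hbt h3 h2 with h4 | h4
    · exact h4
    · exact absurd (h.trans h4.symm) hnc
  have s3 : IsConj b (a * b) → IsConj a (a * b⁻¹) := by
    intro h
    have hn' : IsConj b (b * a) := by rw [← hc]; exact h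
    obtain ⟨n, hn⟩ := isConj_iff.mp hn'
    obtain ⟨h1, h2, h3⟩ := hS.tri hb hb1 ha ha1 hba hn
    rcases na h1 (isConj_iff.mpr ⟨n, rfl⟩) h2 h3 with h4 | h4
    · exact absurd (h4.trans h.symm) hnc
    · exact h4
  have s4 : IsConj b (a * b⁻¹) → IsConj a (a * b) := by
    intro h
    have hc' : a * b⁻¹ = b⁻¹ * a := (Commute.inv_right (show Commute a b from hc)).eq
    have hn' : IsConj b⁻¹ (b⁻¹ * a) := by
      rw [← hc']
      exact (hreal b hb).symm.trans h
    obtain ⟨n, hn⟩ := isConj_iff.mp hn'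
    obtain ⟨h1, h2, h3⟩ := hS.tri hbi hbi1 ha ha1 hab.symm hn
    rcases na h1 (isConj_iff.mpr ⟨n, rfl⟩) h2 h3 with h4 | h4
    · exact h4
    · exact absurd (h4.trans h.symm) hnc
  have s5 : IsConj (a * b) (a * b⁻¹) → (IsConj b (a * b) ∨ IsConj b (a * b⁻¹)) := by
    intro h
    have hsb := hS.sq_b ha hb ha1 hb1 hba hba'
    have e : a * b⁻¹ = a * b * b := by
      rw [mul_assoc, ← pow_two, hsb]
    rw [e] at h
    obtain ⟨n, hn⟩ := isConj_iff.mp h
    have hu1 : a * b ≠ 1 := by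
      intro h0
      exact hba' (eq_inv_of_mul_eq_one_right h0)
    have huv : a * b ≠ b := by
      intro h0
      exact ha1 (by simpa using h0)
    obtain ⟨h1, h2, h3⟩ := hS.tri (S.mul_mem ha hb) hu1 hb hb1 huv hn
    exact nb h1 (isConj_iff.mpr ⟨n, rfl⟩) h2 h3
  by_cases h1 : IsConj a (a * b)
  · exact Or.inl ⟨h1, s1 h1⟩
  by_cases h2 : IsConj a (a * b⁻¹)
  · exact Or.inr (Or.inl ⟨h2, s2 h2⟩)
  by_cases h3 : IsConj b (a * b)
  · exact absurd (s3 h3) h2
  by_cases h4 : IsConj b (a * b⁻¹)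
  · exact absurd (s4 h4) h1
  refine Or.inr (Or.inr ⟨h1, h2, h3, h4, ?_⟩)
  intro h5
  rcases s5 h5 with h6 | h6
  · exact h3 h6
  · exact h4 h6

/-- Two conjugates of `a` with product `b` lie in `S`. -/
theorem Setup.conj_in_S {x y : G} (hx : IsConj a x) (hy : IsConj a y) (hxy : x * y = b) : x ∈ S ∧ y ∈ S := by
  have h3 : ∀ z, IsConj a z → z ^ 3 = 1 := by
    intro z hz
    obtain ⟨g, rfl⟩ := isConj_iff.mp hz
    rw [conj_pow, hS.exp a ha]
    group
  rcases hS.mixed (h3 x hx) (h3 y hy) (by rw [hxy]; exact hb) (by rw [hxy]; exact hb1) with h | h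
  · exact h
  · exfalso
    rw [hxy] at h
    obtain ⟨g, rfl⟩ := isConj_iff.mp hx
    have h4 : IsConj a⁻¹ (g * a * g⁻¹)⁻¹ := isConj_iff.mpr ⟨g, by group⟩
    exact hnc (((hreal a ha).trans h4).trans h)

/-- In the isolated case there are no such pairs. -/
theorem Setup.count_zero (hiso : ∀ x ∈ S, IsConj a x → x = a ∨ x = a⁻¹) :
    Nat.card {w : G × G // IsConj a w.1 ∧ IsConj a w.2 ∧ w.1 * w.2 = b} = 0 := by
  have hsa := hS.sq_a ha hb ha1 hb1 hba hba'
  haveI : IsEmpty {w : G × G // IsConj a w.1 ∧ IsConj a w.2 ∧ w.1 * w.2 = b} := by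
    constructor
    rintro ⟨⟨x, y⟩, hx, hy, hxy⟩
    dsimp only at hx hy hxy
    obtain ⟨hxS, hyS⟩ := hS.conj_in_S ha hb ha1 hb1 hba hba' hreal hnc hx hy hxy
    have h2 : a⁻¹ * a⁻¹ = a := by
      rw [← hsa]
      have := hS.exp a ha
      calc a ^ 2 * a ^ 2 = a ^ 3 * a := by group
        _ = a := by rw [this, one_mul]
    rcases hiso x hxS hx with rfl | rfl <;> rcases hiso y hyS hy with rfl | rfl
    · apply hba'
      rw [← hxy, ← hsa, pow_two]
    · exact hb1 (by rw [← hxy]; group)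
    · exact hb1 (by rw [← hxy]; group)
    · exact hba (by rw [← hxy, h2])
  exact Nat.card_of_isEmpty

section P2

variable (hca : IsConj a (a * b)) (hdb : IsConj b (a * b⁻¹))
include hca hdb

theorem Setup.class_a (p : ZMod 3 × ZMod 3) (hp : Oa p) : IsConj a (τ a b p) := by
  have hc := hS.comm a ha b hb
  have hsa := hS.sq_a ha hb ha1 hb1 hba hba'
  have hsb := hS.sq_b ha hb ha1 hb1 hba hba'
  have e2 : a⁻¹ * b⁻¹ = (a * b)⁻¹ := by
    rw [mul_inv_rev]
    exact (Commute.inv_inv (show Commute a b from hc)).eq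
  rcases hp with rfl | rfl | rfl | rfl
  · change IsConj a (a ^ (1 : ZMod 3).val * b ^ (0 : ZMod 3).val)
    simp only [val0, val1, pow_zero, pow_one, mul_one]
    exact IsConj.refl a
  · change IsConj a (a ^ (2 : ZMod 3).val * b ^ (0 : ZMod 3).val)
    simp only [val0, val2, pow_zero, hsa, mul_one]
    exact hreal a ha
  · change IsConj a (a ^ (1 : ZMod 3).val * b ^ (1 : ZMod 3).val)
    simp only [val1, pow_one]
    exact hca
  · change IsConj a (a ^ (2 : ZMod 3).val * b ^ (2 : ZMod 3).val)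
    simp only [val2, hsa, hsb, e2]
    exact hca.trans (hreal _ (S.mul_mem ha hb))

theorem Setup.class_b (p : ZMod 3 × ZMod 3) (hp : Ob p) : IsConj b (τ a b p) := by
  have hc := hS.comm a ha b hb
  have hsa := hS.sq_a ha hb ha1 hb1 hba hba'
  have hsb := hS.sq_b ha hb ha1 hb1 hba hba'
  have e1 : a⁻¹ * b = (a * b⁻¹)⁻¹ := by
    rw [mul_inv_rev, inv_inv]
    exact (Commute.inv_left (show Commute a b from hc)).eq.trans rfl
  rcases hp with rfl | rfl | rfl | rfl
  · change IsConj b (a ^ (0 : ZMod 3).val * b ^ (1 : ZMod 3).val)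
    simp only [val0, val1, pow_zero, pow_one, one_mul]
    exact IsConj.refl b
  · change IsConj b (a ^ (0 : ZMod 3).val * b ^ (2 : ZMod 3).val)
    simp only [val0, val2, pow_zero, hsb, one_mul]
    exact hreal b hb
  · change IsConj b (a ^ (1 : ZMod 3).val * b ^ (2 : ZMod 3).val)
    simp only [val1, val2, pow_one, hsb]
    exact hdb
  · change IsConj b (a ^ (2 : ZMod 3).val * b ^ (1 : ZMod 3).val)
    simp only [val1, val2, pow_one, hsa, e1]
    exact hdb.trans (hreal _ (S.mul_mem ha (S.inv_mem hb)))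

/-- The sum of a class function over `S`. -/
theorem Setup.sum_S [Fintype S] (f : G → ℂ) (hf : ∀ g h, IsConj g h → f g = f h) :
    ∑ h : S, f h = f 1 + 4 * f a + 4 * f b := by
  classical
  let e : ZMod 3 × ZMod 3 → S := fun p =>
    ⟨τ a b p, S.mul_mem (S.pow_mem ha _) (S.pow_mem hb _)⟩
  have hinj : Function.Injective e := fun p q h =>
    hS.τ_injective ha hb ha1 hb1 hba hba' (congrArg Subtype.val h)
  have hbij : Function.Bijective e := by
    refine ⟨hinj, fun y => ?_⟩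
    obtain ⟨p, hp⟩ := hS.τ_exists ha hb ha1 hb1 hba hba' y.2
    exact ⟨p, Subtype.ext hp⟩
  rw [← hbij.sum_comp (fun h : S => f h)]
  change ∑ p, f (τ a b p) = _
  have hA : ∀ p, Oa p → f (τ a b p) = f a := fun p hp =>
    (hf _ _ (hS.class_a ha hb ha1 hb1 hba hba' hreal hnc hca hdb p hp)).symm
  have hB : ∀ p, Ob p → f (τ a b p) = f b := fun p hp =>
    (hf _ _ (hS.class_b ha hb ha1 hb1 hba hba' hreal hnc hca hdb p hp)).symm
  rw [sum_coord]
  have h0 : τ a b (0, 0) = 1 := τ_zero a b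
  rw [h0, hB (0, 1) (by decide), hB (0, 2) (by decide), hA (1, 0) (by decide), hA (1, 1) (by decide),
    hB (1, 2) (by decide), hA (2, 0) (by decide), hB (2, 1) (by decide), hA (2, 2) (by decide)]
  ring

/-- The exact number of pairs. -/
theorem Setup.count_two :
    Nat.card {w : G × G // IsConj a w.1 ∧ IsConj a w.2 ∧ w.1 * w.2 = b} = 2 := by
  classical
  have hsa := hS.sq_a ha hb ha1 hb1 hba hba'
  have hinj := hS.τ_injective ha hb ha1 hb1 hba hba'
  have hc := hS.comm a ha b hb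
  have hcoord : ∀ x ∈ S, IsConj a x → ∃ p, Oa p ∧ τ a b p = x := by
    intro x hx hax
    obtain ⟨p, rfl⟩ := hS.τ_exists ha hb ha1 hb1 hba hba' hx
    rcases trichotomy_coord p with rfl | h | h
    · exfalso
      rw [show τ a b (0 : ZMod 3 × ZMod 3) = 1 from τ_zero a b] at hax
      exact ha1 (isConj_one_left.mp hax)
    · exact ⟨p, h, rfl⟩
    · exact absurd (hax.trans (hS.class_b ha hb ha1 hb1 hba hba' hreal hnc hca hdb p h).symm) hnc
  have e1 : τ a b ((2, 0) : ZMod 3 × ZMod 3) = a⁻¹ := by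
    change a ^ (2 : ZMod 3).val * b ^ (0 : ZMod 3).val = a⁻¹
    simp only [val0, val2, pow_zero, hsa, mul_one]
  have e2 : τ a b ((1, 1) : ZMod 3 × ZMod 3) = a * b := by
    change a ^ (1 : ZMod 3).val * b ^ (1 : ZMod 3).val = a * b
    simp only [val1, pow_one]
  have e3 : τ a b ((0, 1) : ZMod 3 × ZMod 3) = b := by
    change a ^ (0 : ZMod 3).val * b ^ (1 : ZMod 3).val = b
    simp only [val0, val1, pow_zero, pow_one, one_mul]
  have hai : IsConj a a⁻¹ := hreal a ha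
  let w₁ : {w : G × G // IsConj a w.1 ∧ IsConj a w.2 ∧ w.1 * w.2 = b} :=
    ⟨(a⁻¹, a * b), hai, hca, by simp⟩
  let w₂ : {w : G × G // IsConj a w.1 ∧ IsConj a w.2 ∧ w.1 * w.2 = b} :=
    ⟨(a * b, a⁻¹), hca, hai, by
      change a * b * a⁻¹ = b
      rw [hc]
      group⟩
  rw [Nat.card_eq_two_iff]
  refine ⟨w₁, w₂, ?_, ?_⟩
  · intro h
    have h1 : a⁻¹ = a * b := congrArg (fun w => w.1.1) h
    have h2 : a⁻¹ * a⁻¹ = a := by
      rw [← hsa]
      have := hS.exp a ha
      calc a ^ 2 * a ^ 2 = a ^ 3 * a := by group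
        _ = a := by rw [this, one_mul]
    apply hba
    calc b = a⁻¹ * (a * b) := by group
      _ = a⁻¹ * a⁻¹ := by rw [← h1]
      _ = a := h2
  · ext w
    simp only [Set.mem_insert_iff, Set.mem_singleton_iff, Set.mem_univ, iff_true]
    obtain ⟨⟨x, y⟩, hx, hy, hxy⟩ := w
    dsimp only at hx hy hxy
    obtain ⟨hxS, hyS⟩ := hS.conj_in_S ha hb ha1 hb1 hba hba' hreal hnc hx hy hxy
    obtain ⟨p, hp, rfl⟩ := hcoord x hxS hx
    obtain ⟨q, hq, rfl⟩ := hcoord y hyS hy
    have hsum : p + q = (0, 1) := by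
      apply hinj
      rw [τ_add (hS.exp a ha) (hS.exp b hb) hc, hxy, e3]
    rcases pair_coord p q hp hq hsum with ⟨rfl, rfl⟩ | ⟨rfl, rfl⟩
    · left
      apply Subtype.ext
      exact Prod.ext e1 e2
    · right
      apply Subtype.ext
      exact Prod.ext e2 e1

end P2

end Coord

end Cfsg.Agent.Lib.E9Self
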