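import Mathlib

/-!
# Integer columns: the classification of two orthogonal columns
-/

set_option autoImplicit false
set_option linter.unusedSectionVars false
set_option linter.style.haveILetI false

namespace Cfsg.Agent.Lib.E9Self

universe v

theorem sum_six {ι : Type v} [Fintype ι] [DecidableEq ι] {R : Type*} [AddCommMonoid R]
    (o U V X₁ X₂ X₃ : ι) (hnd : [o, U, V, X₁, X₂, X₃].Nodup) (f : ι → R)
    (h0 : ∀ ρ, ρ ∉ [o, U, V, X₁, X₂, X₃] → f ρ = 0) :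
    ∑ ρ, f ρ = f o + f U + f V + f X₁ + f X₂ + f X₃ := by
  have h1 : ∑ ρ ∈ [o, U, V, X₁, X₂, X₃].toFinset, f ρ = ∑ ρ, f ρ :=
    Finset.sum_subset (Finset.subset_univ _) (fun ρ _ hρ => h0 ρ (by simpa using hρ))
  rw [← h1, List.sum_toFinset _ hnd]
  simp [add_assoc]

theorem int_sq_one_of_le {x : ℤ} (h0 : x ≠ 0) (h3 : x ^ 2 ≤ 3) : x ^ 2 = 1 := by
  have h1 : x ≤ 1 := by nlinarith
  have h2 : -1 ≤ x := by nlinarith
  interval_cases x <;> simp_all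

theorem int_eq_of_sq_one {x : ℤ} (h : x ^ 2 = 1) : x = 1 ∨ x = -1 := by
  have : (x - 1) * (x + 1) = 0 := by linear_combination h
  rcases mul_eq_zero.mp this with h | h
  · left; omega
  · right; omega

theorem support_card {ι : Type v} [DecidableEq ι] (R : Finset ι) (f : ι → ℤ) (n : ℕ)
    (hn : ∑ ρ ∈ R, f ρ ^ 2 = n) (hn3 : n ≤ 3) :
    (R.filter (fun ρ => f ρ ≠ 0)).card = n ∧ ∀ ρ ∈ R.filter (fun ρ => f ρ ≠ 0), f ρ ^ 2 = 1 := by
  have h1 : ∑ ρ ∈ R.filter (fun ρ => f ρ ≠ 0), f ρ ^ 2 = n := by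
    rw [← hn]
    apply Finset.sum_filter_of_ne
    intro ρ _ hρ h0
    apply hρ
    rw [h0]
    norm_num
  have h2 : ∀ ρ ∈ R.filter (fun ρ => f ρ ≠ 0), f ρ ^ 2 = 1 := by
    intro ρ hρ
    have h3 := Finset.mem_filter.mp hρ
    apply int_sq_one_of_le h3.2
    have h4 : f ρ ^ 2 ≤ ∑ ρ ∈ R.filter (fun ρ => f ρ ≠ 0), f ρ ^ 2 :=
      Finset.single_le_sum (f := fun ρ => f ρ ^ 2) (fun i _ => sq_nonneg (f i)) hρ
    rw [h1] at h4
    have : (n : ℤ) ≤ 3 := by exact_mod_cast hn3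
    linarith
  refine ⟨?_, h2⟩
  have h3 : ∑ ρ ∈ R.filter (fun ρ => f ρ ≠ 0), f ρ ^ 2 = (R.filter (fun ρ => f ρ ≠ 0)).card := by
    rw [Finset.sum_congr rfl h2]
    simp
  rw [h1] at h3
  exact_mod_cast h3.symm

/-- The classification of two orthogonal columns, in the case `v = 1`, `v' = 2`. -/
theorem pair_core {ι : Type v} [Fintype ι] [DecidableEq ι] (o : ι) (A p q t : ι → ℤ) (hA : ∀ ρ, 0 < A ρ)
    (hpo : p o = 1) (hqo : q o = 1) (hpp : ∑ ρ, p ρ ^ 2 = 9) (hAp : ∑ ρ, A ρ * p ρ = 0) (hAq : ∑ ρ, A ρ * q ρ = 0)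
    (ht : ∀ ρ, p ρ - q ρ = 3 * t ρ) (x y : ι) (hxy : x ≠ y) (hox : o ≠ x) (hoy : o ≠ y) (htx : t x ^ 2 = 1)
    (hty : t y ^ 2 = 1) (hrest : ∀ ρ, ρ ≠ x → ρ ≠ y → t ρ = 0) (hvx : p x * t x = 1) (hvy : p y * t y = 2) :
    ∃ (U V X₁ X₂ X₃ : ι) (ε c₁ c₂ c₃ : ℤ), [o, U, V, X₁, X₂, X₃].Nodup ∧
      (ε = 1 ∨ ε = -1) ∧ (c₁ = 1 ∨ c₁ = -1) ∧ (c₂ = 1 ∨ c₂ = -1) ∧ (c₃ = 1 ∨ c₃ = -1) ∧
      p U = -2 * ε ∧ q U = ε ∧ p V = ε ∧ q V = -2 * ε ∧ A U = A V ∧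
      p X₁ = c₁ ∧ q X₁ = c₁ ∧ p X₂ = c₂ ∧ q X₂ = c₂ ∧ p X₃ = c₃ ∧ q X₃ = c₃ ∧
      ∀ ρ, ρ ∉ [o, U, V, X₁, X₂, X₃] → p ρ = 0 ∧ q ρ = 0 := by
  set Rest : Finset ι := ((Finset.univ.erase o).erase x).erase y with hRest
  have hmem : ∀ ρ, ρ ∈ Rest ↔ ρ ≠ y ∧ ρ ≠ x ∧ ρ ≠ o := by
    intro ρ
    simp [hRest]
  have hsplit : ∀ f : ι → ℤ, ∑ ρ, f ρ = f o + f x + f y + ∑ ρ ∈ Rest, f ρ := by
    intro f
    have h1 : x ∈ Finset.univ.erase o := Finset.mem_erase.mpr ⟨hox.symm, Finset.mem_univ _⟩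
    have h2 : y ∈ (Finset.univ.erase o).erase x :=
      Finset.mem_erase.mpr ⟨hxy.symm, Finset.mem_erase.mpr ⟨hoy.symm, Finset.mem_univ _⟩⟩
    rw [← Finset.add_sum_erase Finset.univ f (Finset.mem_univ o), ← Finset.add_sum_erase _ f h1,
      ← Finset.add_sum_erase _ f h2]
    ring
  have hpqR : ∀ ρ ∈ Rest, q ρ = p ρ := by
    intro ρ hρ
    obtain ⟨h1, h2, -⟩ := (hmem ρ).mp hρ
    have := ht ρ
    rw [hrest ρ h2 h1] at this
    omega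
  -- values at `x` and `y`
  have hux : p x = t x := by
    calc p x = p x * t x ^ 2 := by rw [htx, mul_one]
      _ = (p x * t x) * t x := by ring
      _ = t x := by rw [hvx, one_mul]
  have huy : p y = 2 * t y := by
    calc p y = p y * t y ^ 2 := by rw [hty, mul_one]
      _ = (p y * t y) * t y := by ring
      _ = 2 * t y := by rw [hvy]
  have hqx : q x = -2 * t x := by
    have := ht x
    linarith
  have hqy : q y = - t y := by
    have := ht y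
    linarith
  -- the remaining sum of squares
  have hT : ∑ ρ ∈ Rest, p ρ ^ 2 = ((3 : ℕ) : ℤ) := by
    have h1 := hsplit (fun ρ => p ρ ^ 2)
    simp only [hpp, hpo, hux, huy] at h1
    push_cast
    nlinarith
  obtain ⟨hcard, hsq⟩ := support_card Rest p 3 hT (le_refl _)
  obtain ⟨X₁, X₂, X₃, h12, h13, h23, hX⟩ := Finset.card_eq_three.mp hcard
  have hXmem : ∀ ρ ∈ ({X₁, X₂, X₃} : Finset ι), ρ ∈ Rest ∧ p ρ ≠ 0 := by
    intro ρ hρ
    rw [← hX] at hρ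
    exact Finset.mem_filter.mp hρ
  have m1 : X₁ ∈ ({X₁, X₂, X₃} : Finset ι) := by simp
  have m2 : X₂ ∈ ({X₁, X₂, X₃} : Finset ι) := by simp
  have m3 : X₃ ∈ ({X₁, X₂, X₃} : Finset ι) := by simp
  have hsq' : ∀ ρ ∈ ({X₁, X₂, X₃} : Finset ι), p ρ ^ 2 = 1 := by
    intro ρ hρ
    rw [← hX] at hρ
    exact hsq ρ hρ
  -- the degrees
  have hdeg : A x * t x + A y * t y = 0 := by
    have h1 : ∑ ρ, A ρ * t ρ = 0 := by
      have h2 : ∑ ρ, A ρ * (p ρ - q ρ) = 0 := by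
        simp only [mul_sub, Finset.sum_sub_distrib, hAp, hAq, sub_zero]
      have h3 : ∑ ρ, A ρ * (p ρ - q ρ) = 3 * ∑ ρ, A ρ * t ρ := by
        rw [Finset.mul_sum]
        refine Finset.sum_congr rfl fun ρ _ => ?_
        rw [ht ρ]
        ring
      rw [h3] at h2
      omega
    rw [hsplit] at h1
    have h4 : ∑ ρ ∈ Rest, A ρ * t ρ = 0 := by
      refine Finset.sum_eq_zero fun ρ hρ => ?_
      obtain ⟨h5, h6, -⟩ := (hmem ρ).mp hρ
      rw [hrest ρ h6 h5, mul_zero]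
    have h5 : t o = 0 := by
      have := ht o
      rw [hpo, hqo] at this
      omega
    rw [h4, h5] at h1
    linarith
  have hAx := hA x
  have hAy := hA y
  have hsgn : t y = - t x ∧ A y = A x := by
    rcases int_eq_of_sq_one htx with h1 | h1 <;> rcases int_eq_of_sq_one hty with h2 | h2 <;>
      rw [h1, h2] at hdeg ⊢ <;> constructor <;> first | rfl | omega
  obtain ⟨hs1, hs2⟩ := hsgn
  have hc : ∀ ρ ∈ ({X₁, X₂, X₃} : Finset ι), (p ρ = 1 ∨ p ρ = -1) := fun ρ hρ =>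
    int_eq_of_sq_one (hsq' ρ hρ)
  obtain ⟨hm1, -⟩ := hXmem _ m1
  obtain ⟨hm2, -⟩ := hXmem _ m2
  obtain ⟨hm3, -⟩ := hXmem _ m3
  obtain ⟨a1, a2, a3⟩ := (hmem _).mp hm1
  obtain ⟨b1, b2, b3⟩ := (hmem _).mp hm2
  obtain ⟨c1, c2, c3⟩ := (hmem _).mp hm3
  refine ⟨y, x, X₁, X₂, X₃, t x, p X₁, p X₂, p X₃, ?_, int_eq_of_sq_one htx, hc _ m1, hc _ m2, hc _ m3,
    ?_, ?_, hux, hqx, hs2, rfl, hpqR _ hm1, rfl, hpqR _ hm2, rfl, hpqR _ hm3, ?_⟩
  · simp only [List.nodup_cons, List.mem_cons, List.not_mem_nil, or_false, not_or, List.nodup_nil,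
      not_false_eq_true, and_true]
    exact ⟨⟨hoy, hox, a3.symm, b3.symm, c3.symm⟩, ⟨hxy.symm, a1.symm, b1.symm, c1.symm⟩,
      ⟨a2.symm, b2.symm, c2.symm⟩, ⟨h12, h13⟩, h23⟩
  · rw [huy, hs1]
    ring
  · rw [hqy, hs1]
    ring
  · intro ρ hρ
    simp only [List.mem_cons, List.not_mem_nil, or_false, not_or] at hρ
    obtain ⟨h1, h2, h3, h4, h5, h6⟩ := hρ
    have hρR : ρ ∈ Rest := (hmem ρ).mpr ⟨h2, h3, h1⟩
    have hp0 : p ρ = 0 := by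
      by_contra hne
      have : ρ ∈ Rest.filter (fun ρ => p ρ ≠ 0) := Finset.mem_filter.mpr ⟨hρR, hne⟩
      rw [hX] at this
      simp only [Finset.mem_insert, Finset.mem_singleton] at this
      rcases this with h | h | h
      · exact h4 h
      · exact h5 h
      · exact h6 h
    exact ⟨hp0, by rw [hpqR ρ hρR, hp0]⟩

/-- The classification of two orthogonal columns. -/
theorem pair_classify {ι : Type v} [Fintype ι] [DecidableEq ι] (o : ι) (A p q : ι → ℤ) (hA : ∀ ρ, 0 < A ρ)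
    (hpo : p o = 1) (hqo : q o = 1) (hpp : ∑ ρ, p ρ ^ 2 = 9) (hqq : ∑ ρ, q ρ ^ 2 = 9)
    (hpq : ∑ ρ, p ρ * q ρ = 0) (hAp : ∑ ρ, A ρ * p ρ = 0) (hAq : ∑ ρ, A ρ * q ρ = 0)
    (h3 : ∀ ρ, (3 : ℤ) ∣ p ρ - q ρ) :
    ∃ (U V X₁ X₂ X₃ : ι) (ε c₁ c₂ c₃ : ℤ), [o, U, V, X₁, X₂, X₃].Nodup ∧
      (ε = 1 ∨ ε = -1) ∧ (c₁ = 1 ∨ c₁ = -1) ∧ (c₂ = 1 ∨ c₂ = -1) ∧ (c₃ = 1 ∨ c₃ = -1) ∧
      p U = -2 * ε ∧ q U = ε ∧ p V = ε ∧ q V = -2 * ε ∧ A U = A V ∧
      p X₁ = c₁ ∧ q X₁ = c₁ ∧ p X₂ = c₂ ∧ q X₂ = c₂ ∧ p X₃ = c₃ ∧ q X₃ = c₃ ∧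
      ∀ ρ, ρ ∉ [o, U, V, X₁, X₂, X₃] → p ρ = 0 ∧ q ρ = 0 := by
  choose t ht using h3
  have ht2 : ∑ ρ ∈ Finset.univ, t ρ ^ 2 = ((2 : ℕ) : ℤ) := by
    have h1 : ∑ ρ, (p ρ - q ρ) ^ 2 = 18 := by
      have : ∀ ρ, (p ρ - q ρ) ^ 2 = p ρ ^ 2 - 2 * (p ρ * q ρ) + q ρ ^ 2 := fun ρ => by ring
      simp only [this, Finset.sum_add_distrib, Finset.sum_sub_distrib, ← Finset.mul_sum, hpp, hqq, hpq]
      norm_num
    have h2 : ∑ ρ, (p ρ - q ρ) ^ 2 = 9 * ∑ ρ, t ρ ^ 2 := by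
      rw [Finset.mul_sum]
      refine Finset.sum_congr rfl fun ρ _ => ?_
      rw [ht ρ]
      ring
    rw [h2] at h1
    push_cast
    omega
  obtain ⟨hcard, hsq⟩ := support_card Finset.univ t 2 ht2 (by norm_num)
  obtain ⟨x, y, hxy, hT⟩ := Finset.card_eq_two.mp hcard
  have hto : t o = 0 := by
    have := ht o
    rw [hpo, hqo] at this
    omega
  have hx : x ∈ Finset.univ.filter (fun ρ => t ρ ≠ 0) := by rw [hT]; simp
  have hy : y ∈ Finset.univ.filter (fun ρ => t ρ ≠ 0) := by rw [hT]; simp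
  have hox : o ≠ x := by
    rintro rfl
    exact (Finset.mem_filter.mp hx).2 hto
  have hoy : o ≠ y := by
    rintro rfl
    exact (Finset.mem_filter.mp hy).2 hto
  have htx := hsq x hx
  have hty := hsq y hy
  have hrest : ∀ ρ, ρ ≠ x → ρ ≠ y → t ρ = 0 := by
    intro ρ h1 h2
    by_contra hne
    have : ρ ∈ Finset.univ.filter (fun ρ => t ρ ≠ 0) := Finset.mem_filter.mpr ⟨Finset.mem_univ _, hne⟩
    rw [hT] at this
    simp only [Finset.mem_insert, Finset.mem_singleton] at this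
    rcases this with h | h
    · exact h1 h
    · exact h2 h
  -- the key equations
  have hsplit : ∀ f : ι → ℤ, ∑ ρ, f ρ = f o + f x + f y + ∑ ρ ∈ ((Finset.univ.erase o).erase x).erase y, f ρ := by
    intro f
    have h1 : x ∈ Finset.univ.erase o := Finset.mem_erase.mpr ⟨hox.symm, Finset.mem_univ _⟩
    have h2 : y ∈ (Finset.univ.erase o).erase x :=
      Finset.mem_erase.mpr ⟨hxy.symm, Finset.mem_erase.mpr ⟨hoy.symm, Finset.mem_univ _⟩⟩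
    rw [← Finset.add_sum_erase Finset.univ f (Finset.mem_univ o), ← Finset.add_sum_erase _ f h1,
      ← Finset.add_sum_erase _ f h2]
    ring
  set T' := ∑ ρ ∈ ((Finset.univ.erase o).erase x).erase y, p ρ ^ 2 with hT'
  have hT0 : 0 ≤ T' := Finset.sum_nonneg fun ρ _ => sq_nonneg _
  have e1 : 1 + p x ^ 2 + p y ^ 2 + T' = 9 := by
    have := hsplit (fun ρ => p ρ ^ 2)
    simp only [hpp, hpo] at this
    linarith
  have e2 : 1 + p x * q x + p y * q y + T' = 0 := by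
    have := hsplit (fun ρ => p ρ * q ρ)
    simp only [hpq, hpo, hqo] at this
    have h5 : ∑ ρ ∈ ((Finset.univ.erase o).erase x).erase y, p ρ * q ρ = T' := by
      rw [hT']
      refine Finset.sum_congr rfl fun ρ hρ => ?_
      simp only [Finset.mem_erase] at hρ
      have h6 := ht ρ
      rw [hrest ρ hρ.2.1 hρ.1] at h6
      have : q ρ = p ρ := by omega
      rw [this]
      ring
    rw [h5] at this
    linarith
  have hqxe : q x = p x - 3 * t x := by have := ht x; linarith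
  have hqye : q y = p y - 3 * t y := by have := ht y; linarith
  rw [hqxe, hqye] at e2
  set v := p x * t x with hv
  set v' := p y * t y with hv'
  have hvs : v ^ 2 = p x ^ 2 := by rw [hv, mul_pow, htx, mul_one]
  have hvs' : v' ^ 2 = p y ^ 2 := by rw [hv', mul_pow, hty, mul_one]
  have hsum : v + v' = 3 := by
    rw [hv, hv']
    nlinarith
  have hle : v ^ 2 + v' ^ 2 ≤ 8 := by
    rw [hvs, hvs']
    linarith
  have hv'e : v' = 3 - v := by linarith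
  rw [hv'e] at hle
  have hl : -1 < v := by nlinarith
  have hu : v < 4 := by nlinarith
  have hcases : (v = 1 ∧ v' = 2) ∨ (v = 2 ∧ v' = 1) := by
    rw [hv'e]
    have h0 : v = 0 ∨ v = 1 ∨ v = 2 ∨ v = 3 := by omega
    rcases h0 with h | h | h | h
    · rw [h] at hle
      norm_num at hle
    · left
      rw [h]
      norm_num
    · right
      rw [h]
      norm_num
    · rw [h] at hle
      norm_num at hle
  rcases hcases with ⟨h1, h2⟩ | ⟨h1, h2⟩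
  · exact pair_core o A p q t hA hpo hqo hpp hAp hAq ht x y hxy hox hoy htx hty hrest h1 h2
  · exact pair_core o A p q t hA hpo hqo hpp hAp hAq ht y x hxy.symm hoy hox hty htx
      (fun ρ h3 h4 => hrest ρ h4 h3) h2 h1

/-- The sign attached to a degree `≡ ±1` modulo `9`. -/
def cA (A : ℕ) : ℤ := if A % 9 = 1 then 1 else -1

/-- The sign attached to a degree `≡ ±4` modulo `9`. -/
def eD (D : ℕ) : ℤ := if D % 9 = 4 then 1 else -1

/-- Admissible degrees. -/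
def okA (M A : ℕ) : Prop := 1 < A ∧ A ∣ M ∧ (A % 9 = 1 ∨ A % 9 = 8)

/-- Admissible degrees. -/
def okD (M D : ℕ) : Prop := 0 < D ∧ D ∣ M ∧ (D % 9 = 4 ∨ D % 9 = 5)

instance (M A : ℕ) : Decidable (okA M A) := by unfold okA; infer_instance
instance (M A : ℕ) : Decidable (okD M A) := by unfold okD; infer_instance

set_option synthInstance.maxHeartbeats 0 in
set_option synthInstance.maxSize 100000 in
set_option maxRecDepth 100000 in
theorem p2_check : ∀ M < 81, 0 < M → ∀ A₁ < 81, okA M A₁ → ∀ A₂ < 81, okA M A₂ → ∀ A₃ < 81, okA M A₃ →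
    ∀ D < 81, okD M D →
    1 + cA A₁ * A₁ + cA A₂ * A₂ + cA A₃ * A₃ = eD D * D →
    (M : ℤ) * (D * A₁ * A₂ * A₃ + 2 * eD D * A₁ * A₂ * A₃ + cA A₁ * D * A₂ * A₃ + cA A₂ * D * A₁ * A₃ +
      cA A₃ * D * A₁ * A₂) = 18 * D * A₁ * A₂ * A₃ → M = 40 := by
  decide +kernel

theorem term_ge {A c : ℤ} (hA : 0 < A) (hc : c = 1 ∨ c = -1) (hd : (9 : ℤ) ∣ A + 8 * c) :
    (-1 / 8 : ℚ) ≤ (c : ℚ) / A := by
  have hA' : (0 : ℚ) < A := by exact_mod_cast hA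
  rcases hc with rfl | rfl
  · push_cast
    have : (0 : ℚ) ≤ 1 / A := by positivity
    linarith
  · have h8 : 8 ≤ A := by omega
    have h8' : (8 : ℚ) ≤ A := by exact_mod_cast h8
    push_cast
    rw [le_div_iff₀ hA']
    nlinarith

theorem term_ge' {D ε : ℤ} (hD : 0 < D) (hc : ε = 1 ∨ ε = -1) (hd : (9 : ℤ) ∣ D - 4 * ε) :
    (-1 / 5 : ℚ) ≤ (ε : ℚ) / D := by
  have hA' : (0 : ℚ) < D := by exact_mod_cast hD
  rcases hc with rfl | rfl
  · push_cast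
    have : (0 : ℚ) ≤ 1 / D := by positivity
    linarith
  · have h8 : 5 ≤ D := by omega
    have h8' : (5 : ℚ) ≤ D := by exact_mod_cast h8
    push_cast
    rw [le_div_iff₀ hA']
    nlinarith

theorem cA_eq {A c : ℤ} {A' : ℕ} (hA : A = A') (hc : c = 1 ∨ c = -1) (hd : (9 : ℤ) ∣ A + 8 * c) :
    cA A' = c ∧ (A' % 9 = 1 ∨ A' % 9 = 8) := by
  subst hA
  rcases hc with rfl | rfl
  · have : A' % 9 = 1 := by omega
    exact ⟨by simp [cA, this], Or.inl this⟩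
  · have : A' % 9 = 8 := by omega
    exact ⟨by simp [cA, this], Or.inr this⟩

theorem eD_eq {A c : ℤ} {A' : ℕ} (hA : A = A') (hc : c = 1 ∨ c = -1) (hd : (9 : ℤ) ∣ A - 4 * c) :
    eD A' = c ∧ (A' % 9 = 4 ∨ A' % 9 = 5) := by
  subst hA
  rcases hc with rfl | rfl
  · have : A' % 9 = 4 := by omega
    exact ⟨by simp [eD, this], Or.inl this⟩
  · have : A' % 9 = 5 := by omega
    exact ⟨by simp [eD, this], Or.inr this⟩

/-- The arithmetic of the fusion case. -/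
theorem p2_arith (M A₁ A₂ A₃ D ε c₁ c₂ c₃ : ℤ) (hM : 0 < M) (h1 : 0 < A₁) (h2 : 0 < A₂) (h3 : 0 < A₃)
    (hD : 0 < D) (h1' : A₁ ≠ 1) (h2' : A₂ ≠ 1) (h3' : A₃ ≠ 1) (hε : ε = 1 ∨ ε = -1)
    (hc₁ : c₁ = 1 ∨ c₁ = -1) (hc₂ : c₂ = 1 ∨ c₂ = -1) (hc₃ : c₃ = 1 ∨ c₃ = -1)
    (d1 : (9 : ℤ) ∣ A₁ + 8 * c₁) (d2 : (9 : ℤ) ∣ A₂ + 8 * c₂) (d3 : (9 : ℤ) ∣ A₃ + 8 * c₃)
    (dD : (9 : ℤ) ∣ D - 4 * ε) (m1 : A₁ ∣ M) (m2 : A₂ ∣ M) (m3 : A₃ ∣ M) (mD : D ∣ M)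
    (hdeg : 1 + c₁ * A₁ + c₂ * A₂ + c₃ * A₃ = ε * D)
    (hB : (M : ℚ) * (1 + 2 * (ε / D) + c₁ / A₁ + c₂ / A₂ + c₃ / A₃) = 18) : M = 40 := by
  have t1 := term_ge h1 hc₁ d1
  have t2 := term_ge h2 hc₂ d2
  have t3 := term_ge h3 hc₃ d3
  have tD := term_ge' hD hε dD
  have hM' : (0 : ℚ) < M := by exact_mod_cast hM
  have hle : (M : ℚ) ≤ 80 := by
    have h5 : (9 / 40 : ℚ) ≤ 1 + 2 * (ε / D) + c₁ / A₁ + c₂ / A₂ + c₃ / A₃ := by linarith
    nlinarith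
  have hle' : M ≤ 80 := by exact_mod_cast hle
  have b1 := Int.le_of_dvd hM m1
  have b2 := Int.le_of_dvd hM m2
  have b3 := Int.le_of_dvd hM m3
  have bD := Int.le_of_dvd hM mD
  have hq1 : (A₁ : ℚ) ≠ 0 := by exact_mod_cast h1.ne'
  have hq2 : (A₂ : ℚ) ≠ 0 := by exact_mod_cast h2.ne'
  have hq3 : (A₃ : ℚ) ≠ 0 := by exact_mod_cast h3.ne'
  have hqD : (D : ℚ) ≠ 0 := by exact_mod_cast hD.ne'
  have heq : M * (D * A₁ * A₂ * A₃ + 2 * ε * A₁ * A₂ * A₃ + c₁ * D * A₂ * A₃ + c₂ * D * A₁ * A₃ +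
      c₃ * D * A₁ * A₂) = 18 * D * A₁ * A₂ * A₃ := by
    have : (M : ℚ) * (D * A₁ * A₂ * A₃ + 2 * ε * A₁ * A₂ * A₃ + c₁ * D * A₂ * A₃ + c₂ * D * A₁ * A₃ +
        c₃ * D * A₁ * A₂) = 18 * D * A₁ * A₂ * A₃ := by
      rw [← hB]
      field_simp
    exact_mod_cast this
  lift M to ℕ using hM.le
  lift A₁ to ℕ using h1.le
  lift A₂ to ℕ using h2.le
  lift A₃ to ℕ using h3.le
  lift D to ℕ using hD.le
  obtain ⟨e1, r1⟩ := cA_eq rfl hc₁ d1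
  obtain ⟨e2, r2⟩ := cA_eq rfl hc₂ d2
  obtain ⟨e3, r3⟩ := cA_eq rfl hc₃ d3
  obtain ⟨eE, rE⟩ := eD_eq rfl hε dD
  have key := p2_check M (by omega) (by omega) A₁ (by omega)
    ⟨by omega, Int.natCast_dvd_natCast.mp m1, r1⟩ A₂ (by omega)
    ⟨by omega, Int.natCast_dvd_natCast.mp m2, r2⟩ A₃ (by omega)
    ⟨by omega, Int.natCast_dvd_natCast.mp m3, r3⟩ D (by omega)
    ⟨by omega, Int.natCast_dvd_natCast.mp mD, rE⟩
    (by rw [e1, e2, e3, eE]; exact hdeg) (by rw [e1, e2, e3, eE]; exact heq)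
  exact_mod_cast key

/-- The arithmetic of the non-fusion case. -/
theorem p1_arith (D A ε c : ℤ) (hD : 0 < D) (hA : 0 < A) (hε : ε = 1 ∨ ε = -1) (hc : c = 1 ∨ c = -1)
    (hdeg : 1 + ε * D + c * A = 0) (hB : (1 : ℚ) + 4 * (ε / D) + c / A = 0) : A = 1 := by
  have hq1 : (A : ℚ) ≠ 0 := by exact_mod_cast hA.ne'
  have hqD : (D : ℚ) ≠ 0 := by exact_mod_cast hD.ne'
  have heq : D * A + 4 * ε * A + c * D = 0 := by
    have : (D : ℚ) * A + 4 * ε * A + c * D = 0 := by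
      field_simp at hB
      linarith
    exact_mod_cast this
  rcases hε with rfl | rfl <;> rcases hc with rfl | rfl
  · omega
  · have hA' : A = D + 1 := by omega
    subst hA'
    nlinarith
  · have hD' : D = A + 1 := by omega
    subst hD'
    have : (A - 1) ^ 2 = 0 := by nlinarith
    have h0 : A - 1 = 0 := by simpa using this
    omega
  · omega

end Cfsg.Agent.Lib.E9Self
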