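import Mathlib
import Cfsg.Agent.Lib.Nine.Basic
import Cfsg.Agent.Lib.E9Self.Local
import Cfsg.Agent.Lib.E9Self.Rows

/-!
# Characters of a group with a self-centralizing elementary abelian Sylow `3`-subgroup of order `9`
-/

set_option autoImplicit false
set_option linter.unusedSectionVars false
set_option linter.unusedVariables false
set_option linter.style.haveILetI false

namespace Cfsg.Agent.Lib.E9Self

open Cfsg
open Cfsg.Agent.Lib.Blocks.Third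
open Cfsg.Agent.Lib.Nine.Basic
open scoped ComplexConjugate

universe u

/-- The output of the classification of two columns. -/
structure PD {ι : Type u} (o : ι) (A p q : ι → ℤ) (U V X₁ X₂ X₃ : ι) (ε c₁ c₂ c₃ : ℤ) : Prop where
  nd : [o, U, V, X₁, X₂, X₃].Nodup
  hε : ε = 1 ∨ ε = -1
  h1 : c₁ = 1 ∨ c₁ = -1
  h2 : c₂ = 1 ∨ c₂ = -1
  h3 : c₃ = 1 ∨ c₃ = -1
  pU : p U = -2 * ε
  qU : q U = ε
  pV : p V = ε
  qV : q V = -2 * ε
  dUV : A U = A V
  pX1 : p X₁ = c₁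
  qX1 : q X₁ = c₁
  pX2 : p X₂ = c₂
  qX2 : q X₂ = c₂
  pX3 : p X₃ = c₃
  qX3 : q X₃ = c₃
  rest : ∀ ρ, ρ ∉ [o, U, V, X₁, X₂, X₃] → p ρ = 0 ∧ q ρ = 0

section PDlemmas

variable {ι : Type u} {o : ι} {A p q : ι → ℤ} {U V X₁ X₂ X₃ : ι} {ε c₁ c₂ c₃ : ℤ}

theorem sign_sq {e : ℤ} (h : e = 1 ∨ e = -1) : e ^ 2 = 1 := by
  rcases h with rfl | rfl <;> norm_num

theorem sign_ne {e : ℤ} (h : e = 1 ∨ e = -1) : e ≠ 0 := by
  rcases h with rfl | rfl <;> norm_num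

theorem sign_big {e : ℤ} (h : e = 1 ∨ e = -1) : (-2 * e) ^ 2 = 4 := by
  rcases h with rfl | rfl <;> norm_num

theorem PD.big_left (h : PD o A p q U V X₁ X₂ X₃ ε c₁ c₂ c₃) (hpo : p o = 1) {ρ : ι} (hρ : p ρ ^ 2 = 4) :
    ρ = U := by
  by_cases hmem : ρ ∈ [o, U, V, X₁, X₂, X₃]
  · simp only [List.mem_cons, List.not_mem_nil, or_false] at hmem
    rcases hmem with rfl | rfl | rfl | rfl | rfl | rfl
    · rw [hpo] at hρ
      norm_num at hρ
    · rfl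
    · rw [h.pV, sign_sq h.hε] at hρ
      norm_num at hρ
    · rw [h.pX1, sign_sq h.h1] at hρ
      norm_num at hρ
    · rw [h.pX2, sign_sq h.h2] at hρ
      norm_num at hρ
    · rw [h.pX3, sign_sq h.h3] at hρ
      norm_num at hρ
  · rw [(h.rest ρ hmem).1] at hρ
    norm_num at hρ

theorem PD.big_right (h : PD o A p q U V X₁ X₂ X₃ ε c₁ c₂ c₃) (hqo : q o = 1) {ρ : ι} (hρ : q ρ ^ 2 = 4) :
    ρ = V := by
  by_cases hmem : ρ ∈ [o, U, V, X₁, X₂, X₃]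
  · simp only [List.mem_cons, List.not_mem_nil, or_false] at hmem
    rcases hmem with rfl | rfl | rfl | rfl | rfl | rfl
    · rw [hqo] at hρ
      norm_num at hρ
    · rw [h.qU, sign_sq h.hε] at hρ
      norm_num at hρ
    · rfl
    · rw [h.qX1, sign_sq h.h1] at hρ
      norm_num at hρ
    · rw [h.qX2, sign_sq h.h2] at hρ
      norm_num at hρ
    · rw [h.qX3, sign_sq h.h3] at hρ
      norm_num at hρ
  · rw [(h.rest ρ hmem).2] at hρ
    norm_num at hρ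

theorem PD.U_ne_V (h : PD o A p q U V X₁ X₂ X₃ ε c₁ c₂ c₃) : U ≠ V := by
  have := h.nd
  simp only [List.nodup_cons, List.mem_cons, List.not_mem_nil, or_false, not_or] at this
  exact this.2.1.1

theorem PD.o_ne (h : PD o A p q U V X₁ X₂ X₃ ε c₁ c₂ c₃) : o ≠ U ∧ o ≠ V := by
  have := h.nd
  simp only [List.nodup_cons, List.mem_cons, List.not_mem_nil, or_false, not_or] at this
  exact ⟨this.1.1, this.1.2.1⟩

theorem PD.X_vals (h : PD o A p q U V X₁ X₂ X₃ ε c₁ c₂ c₃) {z : ι} (hz : z ∈ [X₁, X₂, X₃]) :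
    q z = p z ∧ (p z = 1 ∨ p z = -1) := by
  simp only [List.mem_cons, List.not_mem_nil, or_false] at hz
  rcases hz with rfl | rfl | rfl
  · rw [h.pX1, h.qX1]
    exact ⟨rfl, h.h1⟩
  · rw [h.pX2, h.qX2]
    exact ⟨rfl, h.h2⟩
  · rw [h.pX3, h.qX3]
    exact ⟨rfl, h.h3⟩

theorem PD.X_ne (h : PD o A p q U V X₁ X₂ X₃ ε c₁ c₂ c₃) {z : ι} (hz : z ∈ [X₁, X₂, X₃]) :
    z ≠ o ∧ z ≠ U ∧ z ≠ V := by
  have := h.nd
  simp only [List.nodup_cons, List.mem_cons, List.not_mem_nil, or_false, not_or] at this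
  simp only [List.mem_cons, List.not_mem_nil, or_false] at hz
  obtain ⟨⟨a1, a2, a3, a4, a5⟩, ⟨b1, b2, b3, b4⟩, ⟨c1, c2, c3⟩, -, -⟩ := this
  rcases hz with rfl | rfl | rfl
  · exact ⟨Ne.symm a3, Ne.symm b2, Ne.symm c1⟩
  · exact ⟨Ne.symm a4, Ne.symm b3, Ne.symm c2⟩
  · exact ⟨Ne.symm a5, Ne.symm b4, Ne.symm c3⟩

theorem PD.X_nd (h : PD o A p q U V X₁ X₂ X₃ ε c₁ c₂ c₃) : [X₁, X₂, X₃].Nodup := by
  have := h.nd
  rw [List.nodup_cons, List.nodup_cons, List.nodup_cons] at this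
  exact this.2.2.2

theorem third_row {z y w : ι} {X₁ X₂ X₃ : ι} (h : [X₁, X₂, X₃].Nodup) (hy : y ∈ [X₁, X₂, X₃])
    (hw : w ∈ [X₁, X₂, X₃]) (hyw : y ≠ w) :
    ∃ W, W ∈ [X₁, X₂, X₃] ∧ W ≠ y ∧ W ≠ w ∧ ∀ x ∈ [X₁, X₂, X₃], x = y ∨ x = w ∨ x = W := by
  simp only [List.nodup_cons, List.mem_cons, List.not_mem_nil, or_false, not_or, List.nodup_nil,
    not_false_eq_true, and_true] at h
  obtain ⟨⟨h12, h13⟩, h23⟩ := h
  simp only [List.mem_cons, List.not_mem_nil, or_false] at hy hw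
  simp only [List.mem_cons, List.not_mem_nil, or_false, forall_eq_or_imp, forall_eq]
  rcases hy with rfl | rfl | rfl <;> rcases hw with rfl | rfl | rfl
  · exact absurd rfl hyw
  · exact ⟨X₃, by simp, Ne.symm h13, Ne.symm h23, by simp, by simp, by simp⟩
  · exact ⟨X₂, by simp, Ne.symm h12, h23, by simp, by simp, by simp⟩
  · exact ⟨X₃, by simp, Ne.symm h23, Ne.symm h13, by simp, by simp, by simp⟩
  · exact absurd rfl hyw
  · exact ⟨X₁, by simp, h12, h13, by simp, by simp, by simp⟩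
  · exact ⟨X₂, by simp, h23, Ne.symm h12, by simp, by simp, by simp⟩
  · exact ⟨X₁, by simp, h13, h12, by simp, by simp, by simp⟩
  · exact absurd rfl hyw

end PDlemmas

variable {G : Type u} [Group G] [Fintype G] [Fintype (IrrCharacter G)] {S : Subgroup G}

section Cols

variable (hS : Setup S) (r : G → IrrCharacter G → ℤ)
  (hr : ∀ s ∈ S, ∀ χ : IrrCharacter G, (χ : G → ℂ) s = (r s χ : ℂ))
include hS hr

theorem col_inner {s t : G} (hs : s ∈ S) (ht : t ∈ S) :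
    ((∑ χ : IrrCharacter G, r s χ * r t χ : ℤ) : ℂ) =
      ∑ χ : IrrCharacter G, (χ : G → ℂ) s * conj ((χ : G → ℂ) t) := by
  push_cast
  refine Finset.sum_congr rfl fun χ _ => ?_
  rw [hr s hs, hr t ht, map_intCast]

theorem col_sq {s : G} (hs : s ∈ S) (hs1 : s ≠ 1) : ∑ χ : IrrCharacter G, r s χ ^ 2 = 9 := by
  have h := Cfsg.Agent.Lib.Char.Complete.sum_irr_mul_conj s s
  rw [if_pos (IsConj.refl s), hS.cent s hs hs1, hS.card, ← col_inner hS r hr hs hs] at h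
  have h2 : (∑ χ : IrrCharacter G, r s χ * r s χ) = 9 := by exact_mod_cast h
  rw [← h2]
  exact Finset.sum_congr rfl fun χ _ => by ring

theorem col_orth {s t : G} (hs : s ∈ S) (ht : t ∈ S) (hn : ¬ IsConj s t) :
    ∑ χ : IrrCharacter G, r s χ * r t χ = 0 := by
  have h := Cfsg.Agent.Lib.Char.Complete.sum_irr_mul_conj s t
  rw [if_neg hn, ← col_inner hS r hr hs ht] at h
  exact_mod_cast h

theorem col_deg {s : G} (hs : s ∈ S) (hs1 : s ≠ 1) : ∑ χ : IrrCharacter G, r 1 χ * r s χ = 0 :=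
  col_orth hS r hr S.one_mem hs (fun h => hs1 (isConj_one_left.mp h.symm))

theorem col_one {s : G} (hs : s ∈ S) : r s (oneI G) = 1 := by
  have h := hr s hs (oneI G)
  rw [oneI_apply] at h
  exact_mod_cast h.symm

theorem col_three {s t : G} (hs : s ∈ S) (ht : t ∈ S) (χ : IrrCharacter G) : (3 : ℤ) ∣ r s χ - r t χ := by
  have hc := Cfsg.Agent.Lib.Char.Basic.isCharacter_of_isIrrCharacter χ.2
  have key : ∀ u ∈ S, (3 : ℤ) ∣ r u χ - r 1 χ := by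
    intro u hu
    refine int_three_congr hc u (hr u hu χ) ?_
    rw [hS.exp u hu]
    exact hr 1 S.one_mem χ
  have := dvd_sub (key s hs) (key t ht)
  have e : r s χ - r 1 χ - (r t χ - r 1 χ) = r s χ - r t χ := by ring
  rwa [e] at this

theorem col_class {s t : G} (hs : s ∈ S) (ht : t ∈ S) (hst : IsConj s t) (χ : IrrCharacter G) :
    r s χ = r t χ := by
  have hcf := Cfsg.Agent.Lib.Char.Complete.isClassFunction_iff_isConj.mp
    (Cfsg.Agent.Lib.Char.Basic.isClassFunction_of_isIrrCharacter χ.2)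
  have h := hcf s t hst
  rw [hr s hs, hr t ht] at h
  exact_mod_cast h

theorem col_pos (χ : IrrCharacter G) : 0 < r 1 χ := by
  obtain ⟨n, hn, h1⟩ := Cfsg.Agent.Lib.Char.Complete.exists_pos_deg_of_isIrr χ.2
  rw [hr 1 S.one_mem χ] at h1
  have : r 1 χ = n := by exact_mod_cast h1
  rw [this]
  exact_mod_cast hn

theorem pd_of {s t : G} (hs : s ∈ S) (hs1 : s ≠ 1) (ht : t ∈ S) (ht1 : t ≠ 1) (hn : ¬ IsConj s t) :
    ∃ (U V X₁ X₂ X₃ : IrrCharacter G) (ε c₁ c₂ c₃ : ℤ),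
      PD (oneI G) (r 1) (r s) (r t) U V X₁ X₂ X₃ ε c₁ c₂ c₃ := by
  classical
  obtain ⟨U, V, X₁, X₂, X₃, ε, c₁, c₂, c₃, a1, a2, a3, a4, a5, a6, a7, a8, a9, a10, a11, a12, a13, a14, a15, a16, a17⟩ :=
    pair_classify (oneI G) (r 1) (r s) (r t) (col_pos hS r hr) (col_one hS r hr hs) (col_one hS r hr ht)
      (col_sq hS r hr hs hs1) (col_sq hS r hr ht ht1) (col_orth hS r hr hs ht hn)
      (col_deg hS r hr hs hs1) (col_deg hS r hr ht ht1) (col_three hS r hr hs ht)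
  exact ⟨U, V, X₁, X₂, X₃, ε, c₁, c₂, c₃, ⟨a1, a2, a3, a4, a5, a6, a7, a8, a9, a10, a11, a12, a13, a14, a15, a16, a17⟩⟩

/-- The class constant. -/
theorem class_const {a b : G} (ha : a ∈ S) (ha1 : a ≠ 1) (hb : b ∈ S) :
    (Nat.card {w : G × G // IsConj a w.1 ∧ IsConj a w.2 ∧ w.1 * w.2 = b} : ℂ) * 9 =
      (Nat.card {x : G // IsConj a x} : ℂ) *
        ∑ χ : IrrCharacter G, (r a χ : ℂ) * (r a χ : ℂ) * (r b χ : ℂ) / (r 1 χ : ℂ) := by
  have h := Cfsg.Agent.Lib.Char.ClassProd.card_product_eq a a b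
  have hM : Nat.card {x : G // IsConj a x} * 9 = Nat.card G := by
    have h1 := Cfsg.Agent.Lib.Char.Complete.card_isConj_mul_card_centralizer a
    rw [hS.cent a ha ha1, hS.card] at h1
    rw [← h1]
    congr 1
    exact Nat.card_congr (Equiv.subtypeEquivRight fun x => isConj_comm)
  have hM0 : (Nat.card {x : G // IsConj a x} : ℂ) ≠ 0 := by
    have : Nat.card {x : G // IsConj a x} ≠ 0 := by
      intro h0
      rw [h0] at hM
      have := Nat.card_pos (α := G)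
      omega
    exact_mod_cast this
  have hMc : (Nat.card G : ℂ) = (Nat.card {x : G // IsConj a x} : ℂ) * 9 := by
    rw [← hM]
    push_cast
    rfl
  rw [h, hMc]
  have e : ∀ χ : IrrCharacter G, (χ : G → ℂ) a * (χ : G → ℂ) a * conj ((χ : G → ℂ) b) / (χ : G → ℂ) 1 =
      (r a χ : ℂ) * (r a χ : ℂ) * (r b χ : ℂ) / (r 1 χ : ℂ) := by
    intro χ
    rw [hr a ha, hr b hb, hr 1 S.one_mem, map_intCast]
  simp only [e]
  field_simp

/-- The degree divides the index of `S`. -/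
theorem deg_dvd {a : G} (ha : a ∈ S) (ha1 : a ≠ 1) (χ : IrrCharacter G) (h3 : ¬ (3 : ℤ) ∣ r 1 χ) :
    r 1 χ ∣ (Nat.card {x : G // IsConj a x} : ℤ) := by
  have hM : Nat.card {x : G // IsConj a x} * 9 = Nat.card G := by
    have h1 := Cfsg.Agent.Lib.Char.Complete.card_isConj_mul_card_centralizer a
    rw [hS.cent a ha ha1, hS.card] at h1
    rw [← h1]
    congr 1
    exact Nat.card_congr (Equiv.subtypeEquivRight fun x => isConj_comm)
  have h1 := Cfsg.Agent.Lib.Char.Degree.charDegree_dvd_card χ.2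
  have h2 := Cfsg.Agent.Lib.Char.Degree.charDegree_natCast
    (Cfsg.Agent.Lib.Char.Basic.isCharacter_of_isIrrCharacter χ.2)
  rw [hr 1 S.one_mem χ] at h2
  have h4 : (charDegree ((χ : G → ℂ)) : ℤ) = r 1 χ := by exact_mod_cast h2
  have h5 : r 1 χ ∣ (Nat.card G : ℤ) := by
    rw [← h4]
    exact_mod_cast h1
  rw [← hM] at h5
  push_cast at h5
  have hc : IsCoprime (r 1 χ) (3 : ℤ) :=
    ((Int.prime_three.coprime_iff_not_dvd).mpr h3).symm
  have hc9 : IsCoprime (r 1 χ) (9 : ℤ) := by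
    have := hc.pow_right (n := 2)
    norm_num at this
    exact this
  exact hc9.dvd_of_dvd_mul_right h5

/-- A linear character is trivial. -/
theorem linear_trivial [IsSimpleGroup G] {a z : G} (ha : a ∈ S) (ha1 : a ≠ 1) (hz : z * a * z⁻¹ = a⁻¹)
    (χ : IrrCharacter G) (h1 : r 1 χ = 1) : χ = oneI G := by
  have h2 : (χ : G → ℂ) 1 = 1 := by
    rw [hr 1 S.one_mem, h1]
    simp
  obtain ⟨lam, hlam⟩ := Cfsg.Agent.Lib.Char.Linear.exists_hom_of_deg_one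
    (Cfsg.Agent.Lib.Char.Basic.isCharacter_of_isIrrCharacter χ.2) h2
  rcases IsSimpleGroup.eq_bot_or_eq_top_of_normal _ (MonoidHom.normal_ker lam) with h | h
  · exfalso
    have hinj : Function.Injective lam := (MonoidHom.ker_eq_bot_iff lam).mp h
    have h3 : lam (z * a * z⁻¹) = lam a := by
      rw [map_mul, map_mul, map_inv, mul_comm (lam z), mul_assoc, mul_inv_cancel, mul_one]
    have h4 := hinj h3
    rw [hz] at h4
    have h5 : a ^ 2 = 1 := by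
      rw [pow_two]
      nth_rewrite 1 [← h4]
      exact inv_mul_cancel a
    exact ha1 (Cfsg.Agent.Lib.Nine.Coord.sq_eq_one_of_cube (hS.exp a ha) h5)
  · apply Subtype.ext
    funext g
    rw [oneI_apply, hlam]
    have : g ∈ lam.ker := by rw [h]; trivial
    rw [MonoidHom.mem_ker] at this
    simp [this]

end Cols

section Cases

variable [IsSimpleGroup G] (hS : Setup S)
include hS

theorem exists_cols (hreal : ∀ s ∈ S, IsConj s s⁻¹) :
    ∃ r : G → IrrCharacter G → ℤ, ∀ s ∈ S, ∀ χ : IrrCharacter G, (χ : G → ℂ) s = (r s χ : ℂ) := by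
  have key : ∀ s ∈ S, ∃ r : IrrCharacter G → ℤ, ∀ χ : IrrCharacter G, (χ : G → ℂ) s = (r χ : ℂ) := by
    intro s hs
    have h6 : s ^ 6 = 1 := by
      have : s ^ 6 = (s ^ 3) ^ 2 := by rw [← pow_mul]
      rw [this, hS.exp s hs, one_pow]
    have : ∀ χ : IrrCharacter G, ∃ n : ℤ, (χ : G → ℂ) s = n := by
      intro χ
      refine exists_int_of_pow_six (Cfsg.Agent.Lib.Char.Basic.isCharacter_of_isIrrCharacter χ.2) h6 ?_
      have hcf := Cfsg.Agent.Lib.Char.Complete.isClassFunction_iff_isConj.mp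
        (Cfsg.Agent.Lib.Char.Basic.isClassFunction_of_isIrrCharacter χ.2)
      exact (hcf _ _ (hreal s hs)).symm
    choose r hr using this
    exact ⟨r, hr⟩
  choose! r hr using key
  exact ⟨r, hr⟩

variable {a b : G} (ha : a ∈ S) (hb : b ∈ S) (ha1 : a ≠ 1) (hb1 : b ≠ 1) (hba : b ≠ a) (hba' : b ≠ a⁻¹)
  (hreal : ∀ s ∈ S, IsConj s s⁻¹) (hnc : ¬ IsConj a b) {z : G} (hz : z * a * z⁻¹ = a⁻¹)
include ha hb ha1 hb1 hba hba' hreal hnc hz

/-- The case with fusion. -/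
theorem case_fusion (hca : IsConj a (a * b)) (hdb : IsConj b (a * b⁻¹)) : Nat.card G = 360 := by
  classical
  obtain ⟨r, hr⟩ := exists_cols hS hreal
  obtain ⟨U, V, X₁, X₂, X₃, ε, c₁, c₂, c₃, h⟩ := pd_of hS r hr ha ha1 hb hb1 hnc
  have hcount := hS.count_two ha hb ha1 hb1 hba hba' hreal hnc hca hdb
  have hconst := class_const hS r hr ha ha1 hb
  rw [hcount] at hconst
  -- the sum over `S`
  letI : Fintype S := Fintype.ofFinite _
  have h9 : ∀ χ : IrrCharacter G, (9 : ℤ) ∣ r 1 χ + 4 * r a χ + 4 * r b χ := by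
    intro χ
    have hc := Cfsg.Agent.Lib.Char.Basic.isCharacter_of_isIrrCharacter χ.2
    obtain ⟨n, hn⟩ := exists_nat_sum_subgroup S hc
    have hcf := Cfsg.Agent.Lib.Char.Complete.isClassFunction_iff_isConj.mp
      (Cfsg.Agent.Lib.Char.Basic.isClassFunction_of_isIrrCharacter χ.2)
    have h1 := hS.sum_S ha hb ha1 hb1 hba hba' hreal hnc hca hdb (χ : G → ℂ) hcf
    rw [hn, hS.card, hr 1 S.one_mem, hr a ha, hr b hb] at h1
    refine ⟨n, ?_⟩
    have h2 : ((r 1 χ + 4 * r a χ + 4 * r b χ : ℤ) : ℂ) = ((9 * (n : ℤ) : ℤ) : ℂ) := by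
      push_cast
      rw [← h1]
      push_cast
      ring
    exact_mod_cast h2
  set M := Nat.card {x : G // IsConj a x} with hM
  have hMG : M * 9 = Nat.card G := by
    have h1 := Cfsg.Agent.Lib.Char.Complete.card_isConj_mul_card_centralizer a
    rw [hS.cent a ha ha1, hS.card] at h1
    rw [← h1]
    congr 1
    exact Nat.card_congr (Equiv.subtypeEquivRight fun x => isConj_comm)
  have hM0 : 0 < M := by
    have := Nat.card_pos (α := G)
    omega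
  have hlin := linear_trivial hS r hr ha ha1 hz
  have hpos := col_pos hS r hr
  have hd := deg_dvd hS r hr ha ha1
  obtain ⟨hoU, hoV⟩ := h.o_ne
  have m1 : X₁ ∈ [X₁, X₂, X₃] := by simp
  have m2 : X₂ ∈ [X₁, X₂, X₃] := by simp
  have m3 : X₃ ∈ [X₁, X₂, X₃] := by simp
  have ne1 : r 1 X₁ ≠ 1 := fun h0 => (h.X_ne m1).1 (hlin X₁ h0)
  have ne2 : r 1 X₂ ≠ 1 := fun h0 => (h.X_ne m2).1 (hlin X₂ h0)
  have ne3 : r 1 X₃ ≠ 1 := fun h0 => (h.X_ne m3).1 (hlin X₃ h0)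
  have d1 : (9 : ℤ) ∣ r 1 X₁ + 8 * c₁ := by
    have := h9 X₁
    rw [h.pX1, h.qX1] at this
    have e : r 1 X₁ + 4 * c₁ + 4 * c₁ = r 1 X₁ + 8 * c₁ := by ring
    rwa [e] at this
  have d2 : (9 : ℤ) ∣ r 1 X₂ + 8 * c₂ := by
    have := h9 X₂
    rw [h.pX2, h.qX2] at this
    have e : r 1 X₂ + 4 * c₂ + 4 * c₂ = r 1 X₂ + 8 * c₂ := by ring
    rwa [e] at this
  have d3 : (9 : ℤ) ∣ r 1 X₃ + 8 * c₃ := by
    have := h9 X₃
    rw [h.pX3, h.qX3] at this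
    have e : r 1 X₃ + 4 * c₃ + 4 * c₃ = r 1 X₃ + 8 * c₃ := by ring
    rwa [e] at this
  have dD : (9 : ℤ) ∣ r 1 U - 4 * ε := by
    have := h9 U
    rw [h.pU, h.qU] at this
    have e : r 1 U + 4 * (-2 * ε) + 4 * ε = r 1 U - 4 * ε := by ring
    rwa [e] at this
  have n3 : ∀ {A c : ℤ}, (c = 1 ∨ c = -1) → (9 : ℤ) ∣ A + 8 * c → ¬ (3 : ℤ) ∣ A := by
    intro A c hc h0
    rcases hc with rfl | rfl <;> omega
  have n3' : ¬ (3 : ℤ) ∣ r 1 U := by
    rcases h.hε with h0 | h0 <;> rw [h0] at dD <;> omega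
  have hAp := col_deg hS r hr ha ha1
  have hnd := h.nd
  rw [sum_six _ _ _ _ _ _ hnd (fun χ => r 1 χ * r a χ) (fun ρ hρ => by
    simp only [(h.rest ρ hρ).1, mul_zero])] at hAp
  rw [col_one hS r hr S.one_mem, col_one hS r hr ha, h.pU, h.pV, h.pX1, h.pX2, h.pX3, ← h.dUV] at hAp
  have hdeg : 1 + c₁ * r 1 X₁ + c₂ * r 1 X₂ + c₃ * r 1 X₃ = ε * r 1 U := by linarith
  -- the class constant
  rw [sum_six _ _ _ _ _ _ hnd
    (fun χ => (r a χ : ℂ) * (r a χ : ℂ) * (r b χ : ℂ) / (r 1 χ : ℂ)) (fun ρ hρ => by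
      simp only [(h.rest ρ hρ).1]
      simp)] at hconst
  rw [col_one hS r hr S.one_mem, col_one hS r hr ha, col_one hS r hr hb, h.pU, h.qU, h.pV, h.qV, ← h.dUV,
    h.pX1, h.qX1, h.pX2, h.qX2, h.pX3, h.qX3] at hconst
  have hs : ∀ {e : ℤ}, (e = 1 ∨ e = -1) → ((e : ℂ) * (e : ℂ) * (e : ℂ)) = e := by
    intro e he
    rcases he with rfl | rfl <;> norm_num
  have e1 : (c₁ : ℂ) * c₁ * c₁ = c₁ := hs h.h1
  have e2 : (c₂ : ℂ) * c₂ * c₂ = c₂ := hs h.h2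
  have e3 : (c₃ : ℂ) * c₃ * c₃ = c₃ := hs h.h3
  have eε : (ε : ℂ) * ε * ε = ε := hs h.hε
  have hBC : ((M : ℤ) : ℂ) * (1 + 2 * ((ε : ℂ) / (r 1 U : ℂ)) + (c₁ : ℂ) / (r 1 X₁ : ℂ) + (c₂ : ℂ) / (r 1 X₂ : ℂ) +
      (c₃ : ℂ) / (r 1 X₃ : ℂ)) = 18 := by
    have hsplit : ((((-2 * ε : ℤ) : ℂ) * ((-2 * ε : ℤ) : ℂ) * (ε : ℂ)) / (r 1 U : ℂ)) +
        ((ε : ℂ) * (ε : ℂ) * ((-2 * ε : ℤ) : ℂ)) / (r 1 U : ℂ) = 2 * ((ε : ℂ) / (r 1 U : ℂ)) := by
      push_cast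
      have a1 : (-2 * (ε : ℂ)) * (-2 * ε) * ε = 4 * ε := by
        rw [show (-2 * (ε : ℂ)) * (-2 * ε) * ε = 4 * (ε * ε * ε) by ring, eε]
      have a2 : (ε : ℂ) * ε * (-2 * ε) = -2 * ε := by
        rw [show (ε : ℂ) * ε * (-2 * ε) = -2 * (ε * ε * ε) by ring, eε]
      rw [a1, a2]
      ring
    have h0 : ((2 : ℕ) : ℂ) * 9 = (M : ℂ) * (((1 : ℤ) : ℂ) * ((1 : ℤ) : ℂ) * ((1 : ℤ) : ℂ) / ((1 : ℤ) : ℂ) +
        (((((-2 * ε : ℤ) : ℂ) * ((-2 * ε : ℤ) : ℂ) * (ε : ℂ)) / (r 1 U : ℂ)) +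
        ((ε : ℂ) * (ε : ℂ) * ((-2 * ε : ℤ) : ℂ)) / (r 1 U : ℂ)) +
        (c₁ : ℂ) * c₁ * c₁ / (r 1 X₁ : ℂ) + (c₂ : ℂ) * c₂ * c₂ / (r 1 X₂ : ℂ) + (c₃ : ℂ) * c₃ * c₃ / (r 1 X₃ : ℂ)) := by
      rw [hconst]
      ring
    rw [hsplit, e1, e2, e3] at h0
    push_cast at h0 ⊢
    norm_num at h0 ⊢
    linear_combination -h0
  have hBQ : (((M : ℤ) : ℤ) : ℚ) * (1 + 2 * ((ε : ℚ) / (r 1 U : ℚ)) + (c₁ : ℚ) / (r 1 X₁ : ℚ) +
      (c₂ : ℚ) / (r 1 X₂ : ℚ) + (c₃ : ℚ) / (r 1 X₃ : ℚ)) = 18 := by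
    have := hBC
    have h2 : (((((M : ℤ) : ℤ) : ℚ) * (1 + 2 * ((ε : ℚ) / (r 1 U : ℚ)) + (c₁ : ℚ) / (r 1 X₁ : ℚ) +
      (c₂ : ℚ) / (r 1 X₂ : ℚ) + (c₃ : ℚ) / (r 1 X₃ : ℚ)) : ℚ) : ℂ) = ((18 : ℚ) : ℂ) := by
      push_cast
      push_cast at this
      exact this
    exact_mod_cast h2
  have hfinal := p2_arith (M : ℤ) (r 1 X₁) (r 1 X₂) (r 1 X₃) (r 1 U) ε c₁ c₂ c₃ (by exact_mod_cast hM0)
    (hpos _) (hpos _) (hpos _) (hpos _) ne1 ne2 ne3 h.hε h.h1 h.h2 h.h3 d1 d2 d3 dD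
    (hd _ (n3 h.h1 d1)) (hd _ (n3 h.h2 d2)) (hd _ (n3 h.h3 d3)) (hd _ n3') hdeg hBQ
  have : M = 40 := by exact_mod_cast hfinal
  rw [← hMG, this]

/-- The case without fusion is impossible. -/
theorem case_no_fusion (h1 : ¬ IsConj a (a * b)) (h2 : ¬ IsConj a (a * b⁻¹)) (h3 : ¬ IsConj b (a * b))
    (h4 : ¬ IsConj b (a * b⁻¹)) (h5 : ¬ IsConj (a * b) (a * b⁻¹)) : False := by
  classical
  obtain ⟨r, hr⟩ := exists_cols hS hreal
  have hcS : a * b ∈ S := S.mul_mem ha hb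
  have hdS : a * b⁻¹ ∈ S := S.mul_mem ha (S.inv_mem hb)
  have hc1 : a * b ≠ 1 := fun h0 => hba' (eq_inv_of_mul_eq_one_right h0)
  have hd1 : a * b⁻¹ ≠ 1 := fun h0 => hba (by
    have : a = b⁻¹⁻¹ := eq_inv_of_mul_eq_one_left h0
    rw [this, inv_inv])
  obtain ⟨U, V, X₁, X₂, X₃, ε, c₁, c₂, c₃, h⟩ := pd_of hS r hr ha ha1 hb hb1 hnc
  obtain ⟨U₂, V₂, _, _, _, ε₂, _, _, _, h₂⟩ := pd_of hS r hr ha ha1 hcS hc1 h1
  obtain ⟨U₃, V₃, _, _, _, ε₃, _, _, _, h₃⟩ := pd_of hS r hr ha ha1 hdS hd1 h2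
  obtain ⟨U₄, V₄, _, _, _, ε₄, _, _, _, h₄⟩ := pd_of hS r hr hb hb1 hcS hc1 h3
  obtain ⟨U₅, V₅, _, _, _, ε₅, _, _, _, h₅⟩ := pd_of hS r hr hb hb1 hdS hd1 h4
  obtain ⟨U₆, V₆, _, _, _, ε₆, _, _, _, h₆⟩ := pd_of hS r hr hcS hc1 hdS hd1 h5
  have oa := col_one hS r hr ha
  have ob := col_one hS r hr hb
  have oc := col_one hS r hr hcS
  have od := col_one hS r hr hdS
  have hεs := h.hε
  have hU2 : U = U₂ := h₂.big_left oa (by rw [h.pU]; exact sign_big hεs)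
  have hU3 : U = U₃ := h₃.big_left oa (by rw [h.pU]; exact sign_big hεs)
  subst hU2
  subst hU3
  have hε₂ : ε = ε₂ := by
    have e1 := h.pU
    have e2 := h₂.pU
    omega
  have hε₃ : ε = ε₃ := by
    have e1 := h.pU
    have e2 := h₃.pU
    omega
  subst hε₂
  subst hε₃
  have hV4 : V = U₄ := h₄.big_left ob (by rw [h.qV]; exact sign_big hεs)
  have hV2 : V₂ = V₄ := h₄.big_right oc (by rw [h₂.qV]; exact sign_big hεs)
  have hV5 : V = U₅ := h₅.big_left ob (by rw [h.qV]; exact sign_big hεs)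
  have hV3 : V₃ = V₅ := h₅.big_right od (by rw [h₃.qV]; exact sign_big hεs)
  have hV6 : V₂ = U₆ := h₆.big_left oc (by rw [h₂.qV]; exact sign_big hεs)
  have hV7 : V₃ = V₆ := h₆.big_right od (by rw [h₃.qV]; exact sign_big hεs)
  have ne1 : V ≠ V₂ := by
    rw [hV4, hV2]
    exact h₄.U_ne_V
  have ne2 : V ≠ V₃ := by
    rw [hV5, hV3]
    exact h₅.U_ne_V
  have ne3 : V₂ ≠ V₃ := by
    rw [hV6, hV7]
    exact h₆.U_ne_V
  have mem_of : ∀ {y : IrrCharacter G}, r a y = ε → y ≠ oneI G → y ≠ U → y ≠ V → y ∈ [X₁, X₂, X₃] := by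
    intro y hy h0 hU hV
    by_contra hno
    have hnot : y ∉ [oneI G, U, V, X₁, X₂, X₃] := by
      simp only [List.mem_cons, List.not_mem_nil, or_false, not_or] at hno ⊢
      exact ⟨h0, hU, hV, hno.1, hno.2.1, hno.2.2⟩
    have := (h.rest y hnot).1
    rw [hy] at this
    exact sign_ne hεs this
  have m2 : V₂ ∈ [X₁, X₂, X₃] := mem_of h₂.pV (Ne.symm h₂.o_ne.2) (Ne.symm h₂.U_ne_V) (Ne.symm ne1)
  have m3 : V₃ ∈ [X₁, X₂, X₃] := mem_of h₃.pV (Ne.symm h₃.o_ne.2) (Ne.symm h₃.U_ne_V) (Ne.symm ne2)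
  obtain ⟨W, hW, hW2, hW3, hall⟩ := third_row (z := V₂) h.X_nd m2 m3 ne3
  obtain ⟨q2, -⟩ := h.X_vals m2
  obtain ⟨q3, -⟩ := h.X_vals m3
  obtain ⟨qW, sW⟩ := h.X_vals hW
  obtain ⟨a1, a2, a3⟩ := h.X_ne hW
  obtain ⟨b1, b2, b3⟩ := h.X_ne m2
  obtain ⟨c1, c2, c3⟩ := h.X_ne m3
  have hnd : [oneI G, U, V, V₂, V₃, W].Nodup := by
    have hUV := h.U_ne_V
    obtain ⟨o1, o2⟩ := h.o_ne
    simp only [List.nodup_cons, List.mem_cons, List.not_mem_nil, or_false, not_or, List.nodup_nil,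
      not_false_eq_true, and_true]
    exact ⟨⟨o1, o2, Ne.symm b1, Ne.symm c1, Ne.symm a1⟩, ⟨hUV, Ne.symm b2, Ne.symm c2, Ne.symm a2⟩,
      ⟨Ne.symm b3, Ne.symm c3, Ne.symm a3⟩, ⟨ne3, Ne.symm hW2⟩, Ne.symm hW3⟩
  have hrest : ∀ ρ, ρ ∉ [oneI G, U, V, V₂, V₃, W] → r a ρ = 0 := by
    intro ρ hρ
    refine (h.rest ρ ?_).1
    intro hmem
    apply hρ
    simp only [List.mem_cons, List.not_mem_nil, or_false] at hmem ⊢
    rcases hmem with h0 | h0 | h0 | h0 | h0 | h0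
    · exact Or.inl h0
    · exact Or.inr (Or.inl h0)
    · exact Or.inr (Or.inr (Or.inl h0))
    · rcases hall ρ (by rw [h0]; simp) with h6 | h6 | h6
      · exact Or.inr (Or.inr (Or.inr (Or.inl h6)))
      · exact Or.inr (Or.inr (Or.inr (Or.inr (Or.inl h6))))
      · exact Or.inr (Or.inr (Or.inr (Or.inr (Or.inr h6))))
    · rcases hall ρ (by rw [h0]; simp) with h6 | h6 | h6
      · exact Or.inr (Or.inr (Or.inr (Or.inl h6)))
      · exact Or.inr (Or.inr (Or.inr (Or.inr (Or.inl h6))))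
      · exact Or.inr (Or.inr (Or.inr (Or.inr (Or.inr h6))))
    · rcases hall ρ (by rw [h0]; simp) with h6 | h6 | h6
      · exact Or.inr (Or.inr (Or.inr (Or.inl h6)))
      · exact Or.inr (Or.inr (Or.inr (Or.inr (Or.inl h6))))
      · exact Or.inr (Or.inr (Or.inr (Or.inr (Or.inr h6))))
  -- the degree equation
  have hAp := col_deg hS r hr ha ha1
  rw [sum_six _ _ _ _ _ _ hnd (fun χ => r 1 χ * r a χ) (fun ρ hρ => by
    simp only [hrest ρ hρ, mul_zero])] at hAp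
  have pV2 := h₂.pV
  have pV3 := h₃.pV
  have dV := h.dUV
  have dV2 := h₂.dUV
  have dV3 := h₃.dUV
  rw [col_one hS r hr S.one_mem, oa, h.pU, h.pV, pV2, pV3, ← dV, ← dV2, ← dV3] at hAp
  have hdeg : 1 + ε * r 1 U + r a W * r 1 W = 0 := by linarith
  -- the class constant
  have hiso : ∀ x ∈ S, IsConj a x → x = a ∨ x = a⁻¹ := by
    intro x hx hax
    by_contra hno
    push Not at hno
    rcases hS.nonisol_a ha hb ha1 hb1 hba hba' hreal hnc hx hax hno.1 hno.2 with h0 | h0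
    · exact h1 h0
    · exact h2 h0
  have hcount := hS.count_zero ha hb ha1 hb1 hba hba' hreal hnc hiso
  have hconst := class_const hS r hr ha ha1 hb
  rw [hcount] at hconst
  have hM0 : (Nat.card {x : G // IsConj a x} : ℂ) ≠ 0 := by
    have : Nat.card {x : G // IsConj a x} ≠ 0 := by
      have h6 : Nat.card {x : G // IsConj a x} * Nat.card (Subgroup.centralizer ({a} : Set G)) ≠ 0 := by
        have h7 := Cfsg.Agent.Lib.Char.Complete.card_isConj_mul_card_centralizer a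
        have e : Nat.card {x : G // IsConj x a} = Nat.card {x : G // IsConj a x} :=
          Nat.card_congr (Equiv.subtypeEquivRight fun x => isConj_comm)
        rw [e] at h7
        rw [h7]
        exact Nat.card_pos.ne'
      exact left_ne_zero_of_mul h6
    exact_mod_cast this
  have hB : ∑ χ : IrrCharacter G, (r a χ : ℂ) * (r a χ : ℂ) * (r b χ : ℂ) / (r 1 χ : ℂ) = 0 := by
    have h6 : (Nat.card {x : G // IsConj a x} : ℂ) *
        ∑ χ : IrrCharacter G, (r a χ : ℂ) * (r a χ : ℂ) * (r b χ : ℂ) / (r 1 χ : ℂ) = 0 := by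
      rw [← hconst]
      simp
    exact (mul_eq_zero.mp h6).resolve_left hM0
  rw [sum_six _ _ _ _ _ _ hnd
    (fun χ => (r a χ : ℂ) * (r a χ : ℂ) * (r b χ : ℂ) / (r 1 χ : ℂ)) (fun ρ hρ => by
      simp only [hrest ρ hρ]
      simp)] at hB
  rw [col_one hS r hr S.one_mem, oa, ob, h.pU, h.qU, h.pV, h.qV, pV2, pV3, q2, q3, qW, pV2, pV3,
    ← dV, ← dV2, ← dV3] at hB
  have hs : ∀ {e : ℤ}, (e = 1 ∨ e = -1) → ((e : ℂ) * (e : ℂ) * (e : ℂ)) = e := by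
    intro e he
    rcases he with rfl | rfl <;> norm_num
  have eε : (ε : ℂ) * ε * ε = ε := hs hεs
  have eW : (r a W : ℂ) * r a W * r a W = r a W := hs sW
  have hBC : (1 : ℂ) + 4 * ((ε : ℂ) / (r 1 U : ℂ)) + (r a W : ℂ) / (r 1 W : ℂ) = 0 := by
    rw [eW, eε] at hB
    have a1' : (-2 * (ε : ℂ)) * (-2 * ε) * ε = 4 * ε := by
      rw [show (-2 * (ε : ℂ)) * (-2 * ε) * ε = 4 * (ε * ε * ε) by ring, eε]
    have a2' : (ε : ℂ) * ε * (-2 * ε) = -2 * ε := by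
      rw [show (ε : ℂ) * ε * (-2 * ε) = -2 * (ε * ε * ε) by ring, eε]
    push_cast at hB
    rw [a1', a2'] at hB
    rw [← hB]
    norm_num
    ring
  have hBQ : (1 : ℚ) + 4 * ((ε : ℚ) / (r 1 U : ℚ)) + (r a W : ℚ) / (r 1 W : ℚ) = 0 := by
    have h6 : ((((1 : ℚ) + 4 * ((ε : ℚ) / (r 1 U : ℚ)) + (r a W : ℚ) / (r 1 W : ℚ)) : ℚ) : ℂ) = ((0 : ℚ) : ℂ) := by
      push_cast
      push_cast at hBC
      exact hBC
    exact_mod_cast h6
  have hpos := col_pos hS r hr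
  have hW1 := p1_arith (r 1 U) (r 1 W) ε (r a W) (hpos _) (hpos _) hεs sW hdeg hBQ
  exact a1 (linear_trivial hS r hr ha ha1 hz W hW1)

end Cases

/-- The order of the group. -/
theorem card_eq {G : Type u} [Group G] [Finite G] [IsSimpleGroup G] {S : Subgroup G} (hS : Setup S)
    (hclasses : ∃ a b : G, orderOf a = 3 ∧ orderOf b = 3 ∧ ∀ g : G, g * a * g⁻¹ ≠ b) : Nat.card G = 360 := by
  classical
  letI : Fintype G := Fintype.ofFinite _
  haveI := Cfsg.Agent.Lib.Char.Ortho.finite_irrCharacter (G := G)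
  letI : Fintype (IrrCharacter G) := Fintype.ofFinite _
  obtain ⟨z, hz⟩ := hS.exists_inverter
  have hreal : ∀ s ∈ S, IsConj s s⁻¹ := fun s hs => isConj_iff.mpr ⟨z, hz s hs⟩
  obtain ⟨a₀, b₀, ha₀, hb₀, hno⟩ := hclasses
  have ha3 : a₀ ^ 3 = 1 := by rw [← ha₀]; exact pow_orderOf_eq_one a₀
  have hb3 : b₀ ^ 3 = 1 := by rw [← hb₀]; exact pow_orderOf_eq_one b₀
  have ha10 : a₀ ≠ 1 := by
    rintro rfl
    simp at ha₀
  have hb10 : b₀ ≠ 1 := by
    rintro rfl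
    simp at hb₀
  obtain ⟨g, hg⟩ := hS.exists_conj_mem ha3
  obtain ⟨g', hg'⟩ := hS.exists_conj_mem hb3
  set a := g * a₀ * g⁻¹ with ha
  set b := g' * b₀ * g'⁻¹ with hb
  have ha1 : a ≠ 1 := conj_ne_one ha10
  have hb1 : b ≠ 1 := conj_ne_one hb10
  have hnc : ¬ IsConj a b := by
    intro h
    have h1 : IsConj a₀ a := isConj_iff.mpr ⟨g, rfl⟩
    have h2 : IsConj b₀ b := isConj_iff.mpr ⟨g', rfl⟩
    obtain ⟨c, hc⟩ := isConj_iff.mp ((h1.trans h).trans h2.symm)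
    exact hno c hc
  have hba : b ≠ a := by
    intro h
    exact hnc (by rw [h])
  have hba' : b ≠ a⁻¹ := by
    intro h
    exact hnc (by rw [h]; exact hreal a hg)
  rcases hS.partition hg hg' ha1 hb1 hba hba' hreal hnc with ⟨h1, h2⟩ | ⟨h1, h2⟩ | ⟨h1, h2, h3, h4, h5⟩
  · exact case_fusion hS hg hg' ha1 hb1 hba hba' hreal hnc (hz a hg) h1 h2
  · refine case_fusion hS hg (S.inv_mem hg') ha1 (inv_ne_one.mpr hb1) ?_ ?_ hreal ?_ (hz a hg) h1 ?_
    · intro h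
      exact hba' (by rw [← h, inv_inv])
    · intro h
      exact hba (inv_injective h)
    · intro h
      exact hnc (h.trans (hreal b hg').symm)
    · rw [inv_inv]
      exact (hreal b hg').symm.trans h2
  · exact (case_no_fusion hS hg hg' ha1 hb1 hba hba' hreal hnc (hz a hg) h1 h2 h3 h4 h5).elim

end Cfsg.Agent.Lib.E9Self
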